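import Cfsg.Agent.H19.HalfK
import Cfsg.Agent.H42.Local
import Cfsg.Agent.H3.Fusion

/-!
Groups in which the number of classes of 2-elements is half the order of a Sylow 2-subgroup:
a strongly closed four-group that is a Sylow 2-subgroup of the 2-residual.
-/

set_option autoImplicit false
set_option linter.unusedSectionVars false

namespace Cfsg.Agent.H19

open Cfsg Cfsg.Agent.H49 Subgroup

universe u

variable {G : Type u} [Group G] [Finite G]

theorem not_mem_center_of_moved (hZ : IsPGroup 2 (center G)) {g a : G} (hg : Odd (orderOf g))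
    (h : g * a * g⁻¹ ≠ a) : a⁻¹ * (g * a * g⁻¹) ∉ center G := fun hm => h (by
  have h1 : g * a * g⁻¹ * a⁻¹ ∈ center G := by
    have := mem_center_iff.1 hm a
    rw [show g * a * g⁻¹ * a⁻¹ = a * (a⁻¹ * (g * a * g⁻¹)) * a⁻¹ by group, this,
      mul_inv_cancel_right]
    exact hm
  rw [H42.comm_of_odd_of_commutator_mem hg hZ (fun c hc => mem_center_iff.1 hc g) h1,
    mul_inv_cancel_right])

theorem sq_moved {g a : G} (hg : Odd (orderOf g)) (h : g * a * g⁻¹ ≠ a) :
    g * (g * a * g⁻¹) * g⁻¹ ≠ a := fun e => h (by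
  have h1 : g * g ∈ 𝒞[a] := mem_cent1.2 (by
    calc g * g * a = g * (g * a * g⁻¹) * g⁻¹ * (g * g) := by group
      _ = a * (g * g) := by rw [e])
  rw [mem_cent1.1 (mem_of_sq_mem_of_odd hg h1), mul_inv_cancel_right])

theorem half_moved (P : Sylow 2 G) (hO : pPrimeCore 2 G = ⊥)
    (hk : 2 * Nat.card {c : ConjClasses G // ∀ x ∈ c.carrier, ∃ k : ℕ, orderOf x = 2 ^ k} =
      Nat.card (P : Subgroup G)) {g a b c : G} (hg : Odd (orderOf g)) (ha : a ∈ (P : Subgroup G))
    (hb : b ∈ (P : Subgroup G)) (hc : c ∈ (P : Subgroup G)) (eb : g * a * g⁻¹ = b)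
    (ec : g * b * g⁻¹ = c) (h : b ≠ a) :
    (a⁻¹ * b ∉ center G ∧ a⁻¹ * c ∉ center G ∧ b⁻¹ * c ∉ center G) ∧
    (∀ y ∈ (P : Subgroup G), IsConj a y → y = a ∨ y = b ∨ y = c) ∧
    ∀ x ∈ (P : Subgroup G), ∀ y ∈ (P : Subgroup G), ∀ z ∈ (P : Subgroup G), IsConj x y →
      IsConj x z → x ≠ y → x ≠ z → y ≠ z →
        a⁻¹ * x ∈ center G ∨ b⁻¹ * x ∈ center G ∨ c⁻¹ * x ∈ center G := by
  classical
  have hZ : IsPGroup 2 (center G) := P.isPGroup'.to_le (center_le_sylow P hO)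
  have h1 : a⁻¹ * b ∉ center G := eb ▸ not_mem_center_of_moved hZ hg (eb ▸ h)
  have h2 : a⁻¹ * c ∉ center G := by
    have k := not_mem_center_of_moved hZ (g := g * g) (a := a)
      (by rw [← pow_two]; exact hg.of_dvd_nat (orderOf_pow_dvd 2))
      (by
        have := sq_moved hg (eb ▸ h : g * a * g⁻¹ ≠ a)
        rwa [show g * g * a * (g * g)⁻¹ = g * (g * a * g⁻¹) * g⁻¹ by group])
    rwa [show g * g * a * (g * g)⁻¹ = g * (g * a * g⁻¹) * g⁻¹ by group, eb, ec] at k
  have h3 : b⁻¹ * c ∉ center G := ec ▸ not_mem_center_of_moved hZ hg fun e => h (by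
    rw [← eb] at e
    have := mul_left_cancel (mul_right_cancel e)
    rw [← eb, this])
  have hab : IsConj a b := isConj_iff.2 ⟨g, eb⟩
  have hac : IsConj a c := hab.trans (isConj_iff.2 ⟨g, ec⟩)
  obtain ⟨k1, k2⟩ := half_count P hO hk ha hb hc hab hac h1 h2 h3
  have n1 : a ≠ b := h.symm
  have n2 : a ≠ c := fun e => h2 (by rw [e, inv_mul_cancel]; exact one_mem _)
  have n3 : b ≠ c := fun e => h3 (by rw [e, inv_mul_cancel]; exact one_mem _)
  refine ⟨⟨h1, h2, h3⟩, fun y hy hay => ?_, fun x hx y hy z hz hxy hxz m1 m2 m3 => k1 x hx ?_⟩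
  · by_contra hne
    push Not at hne
    have hcard : ({y, a, b, c} : Finset G).card = 4 := by
      rw [Finset.card_insert_of_notMem (by simp [hne.1, hne.2.1, hne.2.2]),
        Finset.card_eq_three.2 ⟨_, _, _, n1, n2, n3, rfl⟩]
    have := le_fus (P := P) (x := a) {y, a, b, c} fun w hw => by
      simp only [Finset.mem_insert, Finset.mem_singleton] at hw
      rcases hw with rfl | rfl | rfl | rfl
      exacts [⟨hy, hay⟩, ⟨ha, IsConj.refl _⟩, ⟨hb, hab⟩, ⟨hc, hac⟩]
    omega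
  · rw [← Finset.card_eq_three.2 ⟨_, _, _, m1, m2, m3, rfl⟩]
    refine le_fus _ fun w hw => ?_
    simp only [Finset.mem_insert, Finset.mem_singleton] at hw
    rcases hw with rfl | rfl | rfl
    exacts [⟨hx, IsConj.refl _⟩, ⟨hy, hxy⟩, ⟨hz, hxz⟩]

/-- The data extracted from the counting hypothesis. -/
structure Half (P : Subgroup G) (g u v : G) : Prop where
  odd : Odd (orderOf g)
  hu : u ∈ P
  hv : v ∈ P
  uu : u * u = 1
  vv : v * v = 1
  comm : u * v = v * u
  gu : g * u * g⁻¹ = v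
  gv : g * v * g⁻¹ = u * v
  nu : u ∉ center G
  nv : v ∉ center G
  nuv : u * v ∉ center G
  cl : ∀ y ∈ P, IsConj u y → y = u ∨ y = v ∨ y = u * v
  three : ∀ x ∈ P, ∀ y ∈ P, ∀ z ∈ P, IsConj x y → IsConj x z → x ≠ y → x ≠ z → y ≠ z →
    u * x ∈ center G ∨ v * x ∈ center G ∨ u * v * x ∈ center G

theorem not_isPGroup_of_half (P : Sylow 2 G)
    (hk : 2 * Nat.card {c : ConjClasses G // ∀ x ∈ c.carrier, ∃ k : ℕ, orderOf x = 2 ^ k} =
      Nat.card (P : Subgroup G)) : ¬ IsPGroup 2 G := by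
  intro hG
  refine two_mul_card_conjClasses_ne hG ?_
  have h1 : (P : Subgroup G) = ⊤ :=
    (P.is_maximal' (hG.to_subgroup ⊤) le_top).symm
  rw [h1, card_top] at hk
  rw [← hk]
  congr 1
  exact (Nat.card_congr (Equiv.subtypeUnivEquiv fun c x _ =>
    orderOf_two_pow_of_mem (hG.to_subgroup ⊤) (mem_top x))).symm

theorem exists_moved (P : Sylow 2 G) (hO : pPrimeCore 2 G = ⊥) (hG : ¬ IsPGroup 2 G) :
    ∃ Q : Subgroup G, Q ≤ P ∧ ∃ g ∈ 𝒩(Q), Odd (orderOf g) ∧ ∃ a ∈ Q, g * a * g⁻¹ ≠ a := by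
  by_contra hcon
  push Not at hcon
  have h := (H3.hasNormalPComplement_iff_frobenius_sylow P).2 fun Q hQ g hg ho =>
    mem_centralizer_iff.2 fun a ha => by
      have := hcon Q hQ g hg (Nat.coprime_two_right.1 ho) a ha
      calc a * g = g * a * g⁻¹ * g := by rw [this]
        _ = g * a := by group
  have h2 := (hasNormalPComplement_top_iff Nat.prime_two).1 h
  rw [← pPrimeCore_eq_piCoreOf_top Nat.prime_two, hO] at h2
  refine hG ?_
  have h3 : IsPi {2} (⊤ : Subgroup G) := by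
    have := h2.index
    rw [compl_compl, relIndex_bot_left] at this
    exact this
  exact (h3.isPGroup Nat.prime_two).of_equiv topEquiv

theorem exists_half (P : Sylow 2 G) (hO : pPrimeCore 2 G = ⊥)
    (hk : 2 * Nat.card {c : ConjClasses G // ∀ x ∈ c.carrier, ∃ k : ℕ, orderOf x = 2 ^ k} =
      Nat.card (P : Subgroup G)) : ∃ g u v : G, Half (P : Subgroup G) g u v := by
  obtain ⟨Q, hQ, g, hg, ho, a, ha, hm⟩ := exists_moved P hO (not_isPGroup_of_half P hk)
  have hP := P.isPGroup'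
  have cq : ∀ {x : G}, x ∈ Q → g * x * g⁻¹ ∈ Q := fun hx => conj_mem_of_norm le_rfl hg hx
  obtain ⟨b, eb⟩ : ∃ b, g * a * g⁻¹ = b := ⟨_, rfl⟩
  obtain ⟨c, ec⟩ : ∃ c, g * b * g⁻¹ = c := ⟨_, rfl⟩
  have hb : b ∈ Q := eb ▸ cq ha
  have hc : c ∈ Q := ec ▸ cq hb
  have hba : b ≠ a := eb ▸ hm
  obtain ⟨⟨z1, z2, z3⟩, k1, -⟩ := half_moved P hO hk ho (hQ ha) (hQ hb) (hQ hc) eb ec hba
  have hab : IsConj a b := isConj_iff.2 ⟨g, eb⟩
  have hac : IsConj a c := hab.trans (isConj_iff.2 ⟨g, ec⟩)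
  have n2 : a ≠ c := fun e => z2 (by rw [e, inv_mul_cancel]; exact one_mem _)
  have n3 : b ≠ c := fun e => z3 (by rw [e, inv_mul_cancel]; exact one_mem _)
  have inj : ∀ {t x y : G}, t * x * t⁻¹ = t * y * t⁻¹ → x = y := fun e =>
    mul_left_cancel (mul_right_cancel e)
  have ea : g * c * g⁻¹ = a := by
    rcases k1 _ (hQ (cq hc)) (hac.trans (isConj_iff.2 ⟨g, rfl⟩)) with e | e | e
    · exact e
    · exact absurd (inj (e.trans eb.symm)) n2.symm
    · exact absurd (inj (e.trans ec.symm)) n3.symm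
  have cj3 : ∀ {x y z x' y' z' : G}, g * x * g⁻¹ = x' → g * y * g⁻¹ = y' → g * z * g⁻¹ = z' →
      x * y * x⁻¹ = z → x' * y' * x'⁻¹ = z' := by
    intro x y z x' y' z' e1 e2 e3 e
    rw [← e1, ← e2, ← e3, ← e]
    group
  have hcomm : a * b * a⁻¹ = b := by
    rcases k1 (a * b * a⁻¹) (mul_mem (mul_mem (hQ ha) (hQ hb)) (inv_mem (hQ ha)))
      (hab.trans (isConj_iff.2 ⟨a, rfl⟩)) with e | e | e
    · exact absurd (inj (e.trans (by group : a = a * a * a⁻¹))) hba
    · exact e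
    · exfalso
      have e2 := cj3 eb ec ea e
      have e3 := cj3 ec ea eb e2
      have f1 : a * c * a⁻¹ = b := by
        rcases k1 (a * c * a⁻¹) (mul_mem (mul_mem (hQ ha) (hQ hc)) (inv_mem (hQ ha)))
          (hac.trans (isConj_iff.2 ⟨a, rfl⟩)) with f | f | f
        · exact absurd (inj (f.trans (by group : a = a * a * a⁻¹))) n2.symm
        · exact f
        · exact absurd (inj (f.trans e.symm)) n3.symm
      have f2 : b * a * b⁻¹ = c := cj3 eb ea ec f1
      have t1 : a * b * a * (a * b)⁻¹ = b := by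
        calc a * b * a * (a * b)⁻¹ = a * (b * a * b⁻¹) * a⁻¹ := by group
          _ = b := by rw [f2, f1]
      have t2 : a * b * b * (a * b)⁻¹ = c := by
        calc a * b * b * (a * b)⁻¹ = a * b * a⁻¹ := by group
          _ = c := e
      have t3 : a * b * c * (a * b)⁻¹ = a := by
        calc a * b * c * (a * b)⁻¹ = a * (b * c * b⁻¹) * a⁻¹ := by group
          _ = a := by rw [e2]; group
      have t4 : (a * b) ^ 3 ∈ 𝒞[a] := mem_cent1.2 (by
        calc (a * b) ^ 3 * a = a * b * (a * b * (a * b * a * (a * b)⁻¹) * (a * b)⁻¹) * (a * b)⁻¹ *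
              (a * b) ^ 3 := by simp only [pow_succ, pow_zero, one_mul]; group
          _ = a * (a * b) ^ 3 := by rw [t1, t2, t3])
      have t5 := mem_cent1.1 (mem_of_odd_pow_mem hP (mul_mem (hQ ha) (hQ hb)) (by decide) t4)
      rw [t5, mul_inv_cancel_right] at t1
      exact hba t1.symm
  have c1 : Commute a b := by
    rw [Commute, SemiconjBy, ← hcomm, inv_mul_cancel_right, hcomm]
  have c2 : Commute b c := by
    have := cj3 eb ec ec hcomm
    rw [Commute, SemiconjBy, ← this, inv_mul_cancel_right, this]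
  have c3 : Commute c a := by
    have := cj3 ec ea ea (cj3 eb ec ec hcomm)
    rw [Commute, SemiconjBy, ← this, inv_mul_cancel_right, this]
  obtain ⟨u, hu⟩ : ∃ u, u = a * b⁻¹ := ⟨_, rfl⟩
  obtain ⟨v, hv⟩ : ∃ v, v = b * c⁻¹ := ⟨_, rfl⟩
  obtain ⟨w, hw⟩ : ∃ w, w = c * a⁻¹ := ⟨_, rfl⟩
  have uQ : u ∈ Q := hu ▸ mul_mem ha (inv_mem hb)
  have vQ : v ∈ Q := hv ▸ mul_mem hb (inv_mem hc)
  have wQ : w ∈ Q := hw ▸ mul_mem hc (inv_mem ha)
  have gu : g * u * g⁻¹ = v := by rw [hu, hv, ← ec, ← eb]; group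
  have gv : g * v * g⁻¹ = w := by rw [hv, hw, ← ea, ← ec]; group
  have gw : g * w * g⁻¹ = u := by rw [hw, hu, ← eb, ← ea]; group
  have uvw : u * v * w = 1 := by rw [hu, hv, hw]; group
  have d1 : Commute u v := by
    rw [hu, hv]
    exact (c1.mul_right c3.symm.inv_right).mul_left
      ((Commute.refl b).inv_left.mul_right c2.inv_inv)
  have d2 : Commute v w := by
    calc v * w = g * u * g⁻¹ * (g * v * g⁻¹) := by rw [gu, gv]
      _ = g * (u * v) * g⁻¹ := by group
      _ = g * (v * u) * g⁻¹ := by rw [d1.eq]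
      _ = g * v * g⁻¹ * (g * u * g⁻¹) := by group
      _ = w * v := by rw [gu, gv]
  have d3 : Commute u w := by
    have : w = (u * v)⁻¹ := eq_inv_of_mul_eq_one_right uvw
    rw [this]
    exact ((Commute.refl u).mul_right d1).inv_right
  have hvu : v ≠ u := fun e => by
    have e2 : w = u := by rw [← gv, e, gu, e]
    rw [e, e2] at uvw
    have e3 : u ∈ (⊥ : Subgroup G) := mem_of_odd_pow_mem (m := 3) hP (hQ uQ) (by decide)
      (by rw [mem_bot, pow_succ, pow_two]; exact uvw)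
    rw [mem_bot, hu, mul_inv_eq_one] at e3
    exact hba e3.symm
  obtain ⟨⟨y1, y2, y3⟩, k2, k3⟩ := half_moved P hO hk ho (hQ uQ) (hQ vQ) (hQ wQ) gu gv hvu
  have cz : ∀ {x : G}, x ∈ center G → g * x * g⁻¹ = x := fun hx => by
    rw [mem_center_iff.1 hx g, mul_inv_cancel_right]
  have nu : u ∉ center G := fun h => hvu (gu.symm.trans (cz h))
  have sq : ∀ {x y : G}, g * x * g⁻¹ = y → g * (x * x) * g⁻¹ = y * y := fun e => by
    rw [← e]; group
  -- if `x² ∈ y Z` along a cycle then `u ^ 7 ∈ Z`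
  have cyc : ∀ {x y z : G}, Commute x y → Commute y z → y⁻¹ * (x * x) ∈ center G →
      z⁻¹ * (y * y) ∈ center G → x⁻¹ * (z * z) ∈ center G → x ^ 7 ∈ center G := by
    intro x y z e1 e2 m1 m2 m3
    rw [← QuotientGroup.eq] at m1 m2 m3
    rw [← QuotientGroup.eq_one_iff]
    simp only [QuotientGroup.mk_mul, QuotientGroup.mk_pow] at m1 m2 m3 ⊢
    have : (x : G ⧸ center G) = (x : G ⧸ center G) ^ 8 := by
      nth_rewrite 1 [m3]
      rw [m2, m1]
      simp only [pow_succ, pow_zero, one_mul, mul_assoc]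
    rw [pow_succ] at this
    exact (right_eq_mul.1 this)
  have cz' : ∀ {x y x' y' : G}, g * x * g⁻¹ = x' → g * y * g⁻¹ = y' →
      y⁻¹ * (x * x) ∈ center G → y'⁻¹ * (x' * x') ∈ center G := by
    intro x y x' y' e1 e2 h
    have := cz h
    rw [show y'⁻¹ * (x' * x') = g * (y⁻¹ * (x * x)) * g⁻¹ by rw [← e1, ← e2]; group, this]
    exact h
  have uu : u * u = 1 := by
    by_cases e : v * v = u * u
    · have e2 : w * w = u * u := by rw [← sq gv, e, sq gu, e]
      have e3 : (u * u) ^ 3 = 1 := by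
        calc (u * u) ^ 3 = u * u * (v * v) * (w * w) := by
              rw [e, e2]; simp only [pow_succ, pow_zero, one_mul]
          _ = (u * v * w) ^ 2 := by
            rw [(d3.mul_left d2).mul_pow, d1.mul_pow]; simp only [pow_two]
          _ = 1 := by rw [uvw, one_pow]
      exact mem_bot.1 (mem_of_odd_pow_mem (m := 3) hP (hQ (mul_mem uQ uQ)) (by decide)
        (mem_bot.2 e3))
    · exfalso
      have m1 : g * (u * u) * g⁻¹ ≠ u * u := by rwa [sq gu]
      have m2 := sq_moved ho m1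
      rw [sq gu, sq gv] at m2
      have m3 : v * v ≠ w * w := fun e' => e (inj (t := g) (by rw [sq gu, sq gv, e']))
      rcases k3 _ (hQ (mul_mem uQ uQ)) _ (hQ (mul_mem vQ vQ)) _ (hQ (mul_mem wQ wQ))
        (isConj_iff.2 ⟨g, sq gu⟩)
        ((isConj_iff.2 ⟨g, sq gu⟩).trans (isConj_iff.2 ⟨g, sq gv⟩)) (Ne.symm e) m2.symm m3 with
        f | f | f
      · exact nu (by simpa using f)
      · exact nu (mem_of_odd_pow_mem hP (hQ uQ) (by decide)
          (cyc d1 d2 f (cz' gu gv f) (cz' gv gw (cz' gu gv f))))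
      · exact nu (mem_of_odd_pow_mem hP (hQ uQ) (by decide)
          (cyc d3 d2.symm f (cz' gv gu (cz' gu gw f)) (cz' gu gw f)))
  have vv : v * v = 1 := by rw [← sq gu, uu]; group
  have iu : u⁻¹ = u := inv_eq_of_mul_eq_one_right uu
  have iv : v⁻¹ = v := inv_eq_of_mul_eq_one_right vv
  have ew : w = u * v := by
    rw [eq_inv_of_mul_eq_one_right uvw, mul_inv_rev, iu, iv, d1.eq]
  have iw : (u * v)⁻¹ = u * v := by rw [mul_inv_rev, iu, iv, d1.eq]
  subst ew
  rw [iu] at y1 y2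
  rw [iu, iv, iw] at k3
  exact ⟨g, u, v, ho, hQ uQ, hQ vQ, uu, vv, d1.eq, gu, gv, nu,
    by rwa [← mul_assoc, uu, one_mul] at y2, y1, k2, k3⟩

end Cfsg.Agent.H19
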