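import Cfsg.Agent.H19.HalfK2
import Cfsg.Agent.H49.Core
import Mathlib.GroupTheory.SpecificGroups.KleinFour

/-!
Groups in which the number of classes of 2-elements is half the order of a Sylow 2-subgroup:
the Sylow 2-subgroup of the 2-residual is a four-group.
-/

set_option autoImplicit false
set_option linter.unusedSectionVars false

namespace Cfsg.Agent.H19

open Cfsg Cfsg.Agent.H49 Subgroup
open scoped commutatorElement

universe u

variable {G : Type u} [Group G] [Finite G]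

namespace Half

variable {P : Subgroup G} {g u v : G} (h : Half P g u v)
include h

theorem ww : u * v * (u * v) = 1 := by
  rw [mul_assoc, ← mul_assoc v, ← h.comm, mul_assoc, h.vv, mul_one, h.uu]

theorem gw : g * (u * v) * g⁻¹ = u := by
  calc g * (u * v) * g⁻¹ = g * u * g⁻¹ * (g * v * g⁻¹) := by group
    _ = u := by rw [h.gu, h.gv, h.comm, ← mul_assoc, h.vv, one_mul]

theorem u_ne_one : u ≠ 1 := fun e => h.nu (e ▸ one_mem _)
theorem v_ne_one : v ≠ 1 := fun e => h.nv (e ▸ one_mem _)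
theorem w_ne_one : u * v ≠ 1 := fun e => h.nuv (e ▸ one_mem _)
theorem u_ne_v : u ≠ v := fun e => h.w_ne_one (by rw [← e, h.uu])
theorem u_ne_w : u ≠ u * v := fun e => h.v_ne_one (left_eq_mul.1 e)
theorem v_ne_w : v ≠ u * v := fun e => h.u_ne_one (right_eq_mul.1 e)

/-- The four-group. -/
def U : Subgroup G where
  carrier := {x | x = 1 ∨ x = u ∨ x = v ∨ x = u * v}
  one_mem' := Or.inl rfl
  mul_mem' := by
    have e1 : u * (u * v) = v := by rw [← mul_assoc, h.uu, one_mul]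
    have e2 : v * (u * v) = u := by rw [h.comm, ← mul_assoc, h.vv, one_mul]
    have e3 : u * v * u = v := by rw [h.comm, mul_assoc, h.uu, mul_one]
    have e4 : u * v * v = u := by rw [mul_assoc, h.vv, mul_one]
    rintro a b (rfl | rfl | rfl | rfl) (rfl | rfl | rfl | rfl) <;>
      simp [h.uu, h.vv, h.ww, ← h.comm, e1, e2, e3, e4]
  inv_mem' := by
    rintro a (rfl | rfl | rfl | rfl)
    · simp
    · simp [inv_eq_of_mul_eq_one_right h.uu]
    · simp [inv_eq_of_mul_eq_one_right h.vv]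
    · rw [inv_eq_of_mul_eq_one_right h.ww]; simp

theorem mem_U {x : G} : x ∈ h.U ↔ x = 1 ∨ x = u ∨ x = v ∨ x = u * v := Iff.rfl

theorem u_mem : u ∈ h.U := Or.inr (Or.inl rfl)
theorem v_mem : v ∈ h.U := Or.inr (Or.inr (Or.inl rfl))
theorem w_mem : u * v ∈ h.U := Or.inr (Or.inr (Or.inr rfl))

theorem U_le : h.U ≤ P := by
  rintro x (rfl | rfl | rfl | rfl)
  exacts [one_mem _, h.hu, h.hv, mul_mem h.hu h.hv]

theorem sq_U {x : G} (hx : x ∈ h.U) : x * x = 1 := by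
  rcases hx with rfl | rfl | rfl | rfl
  exacts [one_mul _, h.uu, h.vv, h.ww]

theorem card_U : Nat.card h.U = 4 := by
  classical
  have : Nat.card h.U = ({1, u, v, u * v} : Finset G).card := by
    rw [← Nat.card_eq_finsetCard]
    exact Nat.card_congr (Equiv.subtypeEquivRight fun x => by simp [h.mem_U])
  rw [this, Finset.card_insert_of_notMem (by
      simp [h.u_ne_one.symm, h.v_ne_one.symm, h.w_ne_one.symm]),
    Finset.card_eq_three.2 ⟨_, _, _, h.u_ne_v, h.u_ne_w, h.v_ne_w, rfl⟩]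

theorem isKleinFour_U : IsKleinFour h.U := by
  refine ⟨h.card_U, ?_⟩
  haveI : Nontrivial h.U := ⟨⟨⟨u, h.u_mem⟩, 1, fun e => h.u_ne_one (congrArg Subtype.val e)⟩⟩
  exact (Monoid.exponent_eq_prime_iff Nat.prime_two).2 fun x hx =>
    orderOf_eq_prime (Subtype.ext (by rw [coe_pow, pow_two, h.sq_U x.2, coe_one])) hx

theorem conj_mem {x t : G} (hx : x ∈ h.U) (ht : t * x * t⁻¹ ∈ P) : t * x * t⁻¹ ∈ h.U := by
  have k : IsConj u x → t * x * t⁻¹ ∈ h.U := fun e =>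
    Or.inr (h.cl _ ht (e.trans (isConj_iff.2 ⟨t, rfl⟩)))
  rcases hx with rfl | rfl | rfl | rfl
  · simp
  · exact k (IsConj.refl _)
  · exact k (isConj_iff.2 ⟨g, h.gu⟩)
  · exact k ((isConj_iff.2 ⟨g, h.gu⟩).trans (isConj_iff.2 ⟨g, h.gv⟩))

theorem le_norm_U : P ≤ 𝒩(h.U) :=
  le_norm_iff.2 fun _ ht _ hx => h.conj_mem hx (mul_mem (mul_mem ht (h.U_le hx)) (inv_mem ht))

theorem three' {x y z : G} (hx : x ∈ P) (hy : y ∈ P) (hz : z ∈ P) (h1 : IsConj x y)
    (h2 : IsConj x z) (n1 : x ≠ y) (n2 : x ≠ z) (n3 : y ≠ z) :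
    ∃ t ∈ h.U, t ≠ 1 ∧ t * x ∈ center G := by
  rcases h.three x hx y hy z hz h1 h2 n1 n2 n3 with e | e | e
  exacts [⟨_, h.u_mem, h.u_ne_one, e⟩, ⟨_, h.v_mem, h.v_ne_one, e⟩, ⟨_, h.w_mem, h.w_ne_one, e⟩]

theorem eq_one_of_comm {t : G} (ht : t ∈ h.U) (e : g * t * g⁻¹ = t) : t = 1 := by
  rcases ht with rfl | rfl | rfl | rfl
  · rfl
  · exact absurd (e.symm.trans h.gu) h.u_ne_v
  · exact absurd (e.symm.trans h.gv) h.v_ne_w
  · exact absurd (h.gw.symm.trans e) h.u_ne_w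

/-- Elements of `P` centralizing `g` are central. -/
theorem mem_center_of_comm {y : G} (hy : y ∈ P) (e : g * y * g⁻¹ = y) : y ∈ center G := by
  have c1 : g * (y * u) * g⁻¹ = y * v := by
    calc g * (y * u) * g⁻¹ = g * y * g⁻¹ * (g * u * g⁻¹) := by group
      _ = y * v := by rw [e, h.gu]
  have c2 : g * (y * v) * g⁻¹ = y * (u * v) := by
    calc g * (y * v) * g⁻¹ = g * y * g⁻¹ * (g * v * g⁻¹) := by group
      _ = y * (u * v) := by rw [e, h.gv]
  obtain ⟨t, ht, -, hc⟩ := h.three' (mul_mem hy h.hu) (mul_mem hy h.hv)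
    (mul_mem hy (mul_mem h.hu h.hv)) (isConj_iff.2 ⟨g, c1⟩)
    ((isConj_iff.2 ⟨g, c1⟩).trans (isConj_iff.2 ⟨g, c2⟩))
    (fun e => h.u_ne_v (mul_left_cancel e)) (fun e => h.u_ne_w (mul_left_cancel e))
    (fun e => h.v_ne_w (mul_left_cancel e))
  set z := t * (y * u) with hz
  have e1 : y = t⁻¹ * u⁻¹ * z := by
    rw [mul_assoc, mem_center_iff.1 hc u⁻¹, hz]; group
  have e2 : t⁻¹ * u⁻¹ = 1 := by
    refine h.eq_one_of_comm (mul_mem (inv_mem ht) (inv_mem h.u_mem)) (mul_right_cancel (b := z) ?_)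
    rw [← e1, mul_assoc _ g⁻¹, mem_center_iff.1 hc g⁻¹, ← mul_assoc, mul_assoc g, ← e1, e]
  rw [e1, e2, one_mul]
  exact hc

theorem U_le_res : h.U ≤ pResidual 2 G := by
  have hg : g ∈ pResidual 2 G := H3.mem_pResidual_of_coprime (Nat.coprime_two_right.2 h.odd)
  have k : ∀ x : G, g * x * g⁻¹ * x⁻¹ ∈ pResidual 2 G := fun x => by
    rw [mul_assoc, mul_assoc, ← mul_assoc x]
    exact mul_mem hg ((inferInstance : (pResidual 2 G).Normal).conj_mem _ (inv_mem hg) x)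
  have k1 := k v
  rw [h.gv, mul_inv_cancel_right] at k1
  have k2 := (inferInstance : (pResidual 2 G).Normal).conj_mem _ k1 g
  rw [h.gu] at k2
  rintro x (rfl | rfl | rfl | rfl)
  exacts [one_mem _, k1, k2, mul_mem k1 k2]

end Half

/-- Two elements central in a Sylow 2-subgroup `R` of `H` that form a full `H`-class in `R`
coincide. -/
theorem eq_of_class_two {H R : Subgroup G} (hR : IsSylowOf 2 R H) {x t : G} (hx : x ∈ R ⊓ 𝒞(R))
    (ht : t ∈ H) (hy : t * x * t⁻¹ ∈ R ⊓ 𝒞(R))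
    (h2 : ∀ s ∈ H, s * x * s⁻¹ ∈ R → s * x * s⁻¹ = x ∨ s * x * s⁻¹ = t * x * t⁻¹) :
    t * x * t⁻¹ = x := by
  have h1 : R ≤ H ⊓ 𝒞[x] := le_inf hR.le (le_cent1_iff.2 hx.2)
  have h3 : cj t⁻¹ R ≤ H ⊓ 𝒞[x] := by
    refine le_inf (cj_le_of_mem hR.le (inv_mem ht)) ?_
    rw [cj_le_iff, inv_inv, cj_cent1]
    exact le_cent1_iff.2 hy.2
  obtain ⟨c, hc, e⟩ := sylowOf_conj (hR.sub h1 inf_le_left)
    ((hR.cj_of_mem (inv_mem ht)).sub h3 inf_le_left)
  have hn : t * c ∈ H ⊓ 𝒩(R) := mem_inf.2 ⟨mul_mem ht hc.1, by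
    rw [mem_norm_iff_cj, cj_mul, e, cj_cj_inv]⟩
  have e1 : t * c * x * (t * c)⁻¹ = t * x * t⁻¹ := by
    rw [mul_assoc t c x, mem_cent1.1 hc.2]; group
  obtain ⟨a, b, ha, hb, ⟨k, hk⟩, hbo, e2⟩ := H3.exists_p_part (p := 2) (t * c)
  have ha' := zpowers_le.2 hn ha
  have hb' := zpowers_le.2 hn hb
  have haR : a ∈ R := by
    have p1 : IsPi {2} (zpowers a) := isPi_of_isPGroup Nat.prime_two
      (IsPGroup.of_card (n := (Nat.card (zpowers a)).factorization 2) (by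
        obtain ⟨j, -, hj⟩ := (Nat.dvd_prime_pow Nat.prime_two).1 (orderOf_dvd_of_pow_eq_one hk)
        rw [Nat.card_zpowers, hj, Nat.factorization_pow_self Nat.prime_two]))
    have p2 := hR.eq_of_le (K := R ⊔ zpowers a) le_sup_left (sup_le hR.le (zpowers_le.2 ha'.1))
      (hR.pi.sup p1 (Or.inr (zpowers_le.2 ha'.2)))
    rw [p2]
    exact mem_sup_right (mem_zpowers a)
  have hbx : b * x * b⁻¹ = x := by
    by_contra hne
    have hbo' : Odd (orderOf b) := Nat.coprime_two_right.1 hbo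
    have m1 := conj_mem_of_norm le_rfl hb'.2 hx.1
    have m2 := conj_mem_of_norm le_rfl hb'.2 m1
    have m3 : b * (b * x * b⁻¹) * b⁻¹ = b * b * x * (b * b)⁻¹ := by group
    rcases h2 _ (mul_mem hb'.1 hb'.1) (m3 ▸ m2) with f | f
    · exact sq_moved hbo' hne (m3.trans f)
    · rcases h2 _ hb'.1 m1 with f' | f'
      · exact hne f'
      · exact hne (mul_left_cancel (mul_right_cancel (m3.trans (f.trans f'.symm))))
  rw [← e1, e2]
  calc a * b * x * (a * b)⁻¹ = a * (b * x * b⁻¹) * a⁻¹ := by group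
    _ = x := by rw [hbx, mem_centralizer_iff.1 hx.2 a haR, mul_inv_cancel_right]

theorem le_of_le_sup_der {U R : Subgroup G} (hs : Group.IsSolvable R) (hn : R ≤ 𝒩(U))
    (h : R ≤ U ⊔ ⁅R, R⁆) : R ≤ U := by
  rw [← quo_eq_bot_iff hn]
  by_contra hne
  have h1 := der_lt_of_solvable (solvable_quo hs U) hne
  rw [← quo_commutator hn hn] at h1
  exact h1.not_ge ((quo_le_quo_iff' hn (der_le.trans hn)).2 (h.trans (sup_comm _ _).le))

theorem Half.inf_res (P : Sylow 2 G) {g u v : G} (h : Half (P : Subgroup G) g u v) :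
    (P : Subgroup G) ⊓ pResidual 2 G = h.U := by
  refine le_antisymm ?_ (le_inf h.U_le h.U_le_res)
  set R := (P : Subgroup G) ⊓ pResidual 2 G with hR
  have hsyl : IsSylowOf 2 R (pResidual 2 G) := by
    have := (sylowOf_top Nat.prime_two P).inf_normal (N := pResidual 2 G) le_top
      (normal_iff_top_le_norm.1 inferInstance)
    exact this
  refine le_of_le_sup_der (solvable_of_nilpotent hsyl.pi.nilpotent) (inf_le_left.trans h.le_norm_U)
    ((H3.sylow_inf_pResidual_le_iff P _).2 fun x hx hxH t ht hy => ?_)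
  by_cases hxy : t * x * t⁻¹ = x
  · rw [hxy, inv_mul_cancel]
    exact one_mem _
  by_cases hc : ∃ s ∈ h.U, s * x ∈ center G
  · obtain ⟨s, hs, hz⟩ := hc
    have e : t * x * t⁻¹ = t * s⁻¹ * t⁻¹ * (s * x) := by
      rw [mul_assoc _ t⁻¹, mem_center_iff.1 hz t⁻¹]; group
    have hz' : s * x ∈ (P : Subgroup G) := mul_mem (h.U_le hs) hx
    have k := h.conj_mem (t := t) (inv_mem hs) ((mul_mem_cancel_right hz').1 (e ▸ hy))
    have e' : x⁻¹ * (t * x * t⁻¹) = s * (t * s⁻¹ * t⁻¹) := by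
      rw [e, mem_center_iff.1 hz]
      nth_rewrite 1 [show x⁻¹ = (s * x)⁻¹ * s by group]
      rw [mul_assoc, ← mul_assoc s, mem_center_iff.1 hz s]
      group
    rw [e']
    exact mem_sup_left (mul_mem hs k)
  have two : ∀ s : G, s * x * s⁻¹ ∈ (P : Subgroup G) →
      s * x * s⁻¹ = x ∨ s * x * s⁻¹ = t * x * t⁻¹ := fun s hs => by
    by_contra hne
    push Not at hne
    obtain ⟨w, hw, -, hz⟩ := h.three' hx hy hs (isConj_iff.2 ⟨t, rfl⟩) (isConj_iff.2 ⟨s, rfl⟩)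
      (Ne.symm hxy) hne.1.symm hne.2.symm
    exact hc ⟨w, hw, hz⟩
  have hxR : x ∈ R := ⟨hx, hxH⟩
  have hyR : t * x * t⁻¹ ∈ R := mem_inf.2 ⟨hy, mul_mem (mul_mem ht hxH) (inv_mem ht)⟩
  by_cases hcx : x ∈ 𝒞(R)
  · refine absurd (eq_of_class_two hsyl ⟨hxR, hcx⟩ ht ⟨hyR, ?_⟩ fun s _ hs => two s hs.1) hxy
    refine mem_centralizer_iff.2 fun r hr => ?_
    have m : r * (t * x * t⁻¹) * r⁻¹ = r * t * x * (r * t)⁻¹ := by group
    rcases two (r * t) (m ▸ mul_mem (mul_mem hr.1 hy) (inv_mem hr.1)) with f | f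
    · exfalso
      apply hxy
      have := mem_centralizer_iff.1 hcx r hr
      calc t * x * t⁻¹ = r⁻¹ * (r * t * x * (r * t)⁻¹) * r := by group
        _ = x := by rw [f, mul_assoc, ← this, inv_mul_cancel_left]
    · rw [← m] at f
      exact mul_inv_eq_iff_eq_mul.1 f
  · rw [mem_centralizer_iff] at hcx
    push Not at hcx
    obtain ⟨r, hr, hne⟩ := hcx
    rcases two r (mul_mem (mul_mem hr.1 hx) (inv_mem hr.1)) with f | f
    · exact absurd (mul_inv_eq_iff_eq_mul.1 f) hne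
    · rw [← f, show x⁻¹ * (r * x * r⁻¹) = ⁅x⁻¹, r⁆ by simp only [commutatorElement_def]; group]
      exact mem_sup_right (commutator_mem_commutator (inv_mem hxR) hr)

end Cfsg.Agent.H19
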