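import Cfsg.Agent.H66.SL2Order
import Cfsg.Agent.H31.MinL33
import Cfsg.Agent.H13.SzTorus
import Cfsg.Agent.H13.SzGroup
import Cfsg.Agent.H13.SzInst

/-! The sequence `s ↦ [s^y, s⁻¹]` does not die in the minimal simple groups. -/

set_option autoImplicit false
set_option linter.style.haveILetI false

namespace Cfsg.Agent.H19

open Matrix MatrixGroups Cfsg.Agent.H66

section general

variable {G H : Type*} [Group G] [Group H]

/-- One step of the sequence. -/
def bwStep (y s : G) : G := (y⁻¹ * s * y) * (s⁻¹) * (y⁻¹ * s * y)⁻¹ * (s⁻¹)⁻¹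

/-- The sequence. -/
def bwSeq (x y : G) (n : ℕ) : G :=
  @Nat.rec (fun _ => G) x (fun _ s => (y⁻¹ * s * y) * (s⁻¹) * (y⁻¹ * s * y)⁻¹ * (s⁻¹)⁻¹) n

theorem bwSeq_zero (x y : G) : bwSeq x y 0 = x := rfl

theorem bwSeq_succ (x y : G) (n : ℕ) : bwSeq x y (n + 1) = bwStep y (bwSeq x y n) := rfl

theorem map_bwStep (f : G →* H) (y s : G) : f (bwStep y s) = bwStep (f y) (f s) := by
  simp [bwStep]

theorem map_bwSeq (f : G →* H) (x y : G) (n : ℕ) : f (bwSeq x y n) = bwSeq (f x) (f y) n := by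
  induction n with
  | zero => rfl
  | succ n ih => rw [bwSeq_succ, bwSeq_succ, map_bwStep, ih]

theorem bwSeq_mem_derivedSeries (x y : G) (n : ℕ) : bwSeq x y n ∈ derivedSeries G n := by
  induction n with
  | zero => exact Subgroup.mem_top _
  | succ n ih =>
    rw [bwSeq_succ, derivedSeries_succ]
    have hN : (derivedSeries G n).Normal := derivedSeries_normal G n
    have h1 : y⁻¹ * bwSeq x y n * y ∈ derivedSeries G n := by
      have := hN.conj_mem _ ih y⁻¹
      rwa [inv_inv] at this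
    exact Subgroup.commutator_mem_commutator h1 (inv_mem ih)

/-- No term of the sequence is a law. -/
def BwAlive (G : Type*) [Group G] : Prop := ∀ n : ℕ, ∃ x y : G, bwSeq x y n ≠ 1

theorem BwAlive.map (h : BwAlive G) (f : G →* H) (hf : Function.Injective f) : BwAlive H := by
  intro n
  obtain ⟨x, y, e⟩ := h n
  refine ⟨f x, f y, fun e' => e (hf ?_)⟩
  rw [map_bwSeq, e', map_one]

theorem BwAlive.lift (h : BwAlive H) (f : G →* H) (hf : Function.Surjective f) : BwAlive G := by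
  intro n
  obtain ⟨x, y, e⟩ := h n
  obtain ⟨x, rfl⟩ := hf x
  obtain ⟨y, rfl⟩ := hf y
  refine ⟨x, y, fun e' => e ?_⟩
  rw [← map_bwSeq, e', map_one]

theorem BwAlive.of_equiv (h : BwAlive H) (e : G ≃* H) : BwAlive G :=
  h.lift e.toMonoidHom e.surjective

theorem bwAlive_of_inv (f : G →* H) (y x : G) (P : G → Prop) (hx : P x)
    (hP : ∀ s, P s → P (bwStep y s)) (h1 : ∀ s, P s → f s ≠ 1) : BwAlive H := by
  intro n
  refine ⟨f x, f y, ?_⟩
  rw [← map_bwSeq]
  apply h1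
  induction n with
  | zero => exact hx
  | succ n ih => exact hP _ ih

/-- A four-group strongly embedded in `B` and an involution outside `B`. -/
theorem bwAlive_of_strong (B : Subgroup G) (y u i : G) (hy : y * y = 1) (hu : u * u = 1)
    (hc : u * y = y * u) (huB : u ∈ B) (hyB : y ∈ B)
    (hs : ∀ g v : G, (v = y ∨ v = u ∨ v = y * u) → g * v * g⁻¹ ∈ B → g ∈ B)
    (hi : i * i = 1) (hiB : i ∉ B) : BwAlive G := by
  refine bwAlive_of_inv (MonoidHom.id G) y (u * i)
    (fun s => ∃ v j : G, (v = u ∨ v = y * u) ∧ j * j = 1 ∧ j ∉ B ∧ s = v * j)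
    ⟨u, i, Or.inl rfl, hi, hiB, rfl⟩ ?_ ?_
  · rintro s ⟨v, j, hv, hj, hjB, rfl⟩
    have hyi : y⁻¹ = y := inv_eq_of_mul_eq_one_right hy
    have hji : j⁻¹ = j := inv_eq_of_mul_eq_one_right hj
    have hvv : v * v = 1 := by
      rcases hv with rfl | rfl
      · exact hu
      · calc y * u * (y * u) = y * (u * y) * u := by group
          _ = (y * y) * (u * u) := by rw [hc]; group
          _ = 1 := by rw [hy, hu, one_mul]
    have hvi : v⁻¹ = v := inv_eq_of_mul_eq_one_right hvv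
    have hvy : v * y = y * v := by
      rcases hv with rfl | rfl
      · exact hc
      · rw [mul_assoc, hc]
    have hk : j * y * j ∉ B := fun h => hjB (hs j y (Or.inl rfl) (by rwa [hji]))
    have hkk : (j * y * j) * (j * y * j) = 1 := by
      calc (j * y * j) * (j * y * j) = j * y * (j * j) * y * j := by group
        _ = j * (y * y) * j := by rw [hj]; group
        _ = 1 := by rw [hy, mul_one, hj]
    have hki : (j * y * j)⁻¹ = j * y * j := inv_eq_of_mul_eq_one_right hkk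
    have hv' : y * v = u ∨ y * v = y * u := by
      rcases hv with rfl | rfl
      · exact Or.inr rfl
      · left; rw [← mul_assoc, hy, one_mul]
    have hww : (y * v) * (y * v) = 1 := by
      calc y * v * (y * v) = y * (v * y) * v := by group
        _ = (y * y) * (v * v) := by rw [hvy]; group
        _ = 1 := by rw [hy, hvv, one_mul]
    refine ⟨y * v, (j * y * j) * (y * v) * (j * y * j), hv', ?_, ?_, ?_⟩
    · calc (j * y * j) * (y * v) * (j * y * j) * ((j * y * j) * (y * v) * (j * y * j))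
          = (j * y * j) * (y * v) * ((j * y * j) * (j * y * j)) * (y * v) * (j * y * j) := by group
        _ = (j * y * j) * ((y * v) * (y * v)) * (j * y * j) := by rw [hkk]; group
        _ = 1 := by rw [hww, mul_one, hkk]
    · intro h
      refine hk (hs _ (y * v) (Or.inr hv') ?_)
      rwa [hki]
    · have e1 : v * y * v = y := by rw [hvy, mul_assoc, hvv, mul_one]
      simp only [bwStep, _root_.mul_inv_rev, hyi, hji, hvi]
      calc y * (v * j) * y * (j * v) * (y * (j * v * y)) * (v * j)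
          = y * v * (j * y * j) * (v * y) * j * (v * y * v) * j := by group
        _ = y * v * (j * y * j * (y * v) * (j * y * j)) := by rw [e1, hvy]; group
  · rintro s ⟨v, j, hv, -, hjB, rfl⟩ h
    have hvB : v ∈ B := by
      rcases hv with rfl | rfl
      · exact huB
      · exact B.mul_mem hyB huB
    have : j = v⁻¹ := eq_inv_of_mul_eq_one_right h
    exact hjB (this ▸ B.inv_mem hvB)

end general

theorem bwAlive_model {G F : Type*} [Group G] [Field F] [H13.Tits F] (M : H13.Model G F)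
    (hz : ∃ z : F, z ^ 2 ≠ z) : BwAlive G := by
  obtain ⟨z, hz⟩ := hz
  have h2 : (2 : F) = 0 := by
    have := M.u_pow_four 0 1
    have h := M.u_sq 0 1
    rw [pow_two, M.u_mul_u, M.u_inj] at h
    have := h.2
    linear_combination this
  have hz0 : z ≠ 0 := by rintro rfl; simp at hz
  have hz1 : z ≠ 1 := by rintro rfl; simp at hz
  have sq : ∀ b : F, M.u 0 b * M.u 0 b = 1 := by
    intro b
    rw [M.u_mul_u, M.u_eq_one]
    constructor
    · simp
    · linear_combination b * h2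
  refine bwAlive_of_strong M.B (M.u 0 1) (M.u 0 z) M.w (sq 1) (sq z) (M.u_zero_comm _ _ _)
    (M.u_mem_B _ _) (M.u_mem_B _ _) ?_ M.w_mul_w M.w_not_mem_B
  rintro g v (rfl | rfl | rfl) h
  · exact M.mem_B_of_conj_mem_B (M.u_mem_U _ _) (by rw [Ne, M.u_eq_one]; simp) h
  · exact M.mem_B_of_conj_mem_B (M.u_mem_U _ _) (by rw [Ne, M.u_eq_one]; simp [hz0]) h
  · refine M.mem_B_of_conj_mem_B (M.U.mul_mem (M.u_mem_U _ _) (M.u_mem_U _ _)) ?_ h
    rw [M.u_mul_u, Ne, M.u_eq_one]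
    rintro ⟨-, h⟩
    apply hz1
    linear_combination h - h2

theorem bwAlive_sz {F : Type*} [Field F] [Fintype F] {m : ℕ} (hm : 1 ≤ m)
    (hF : Fintype.card F = 2 ^ (2 * m + 1)) : BwAlive (Cfsg.Lie.Sz F (2 ^ (m + 1))) := by
  letI := H13.titsOfCard hF
  exact bwAlive_model (H13.lieModel (H13.titsOfCard_θ hF)) (H13.exists_sq_ne (H13.two_lt_card hm hF))

section sl2

variable {F : Type*} [Field F]

theorem toPSL_ne_one_of {g : SL(2, F)} (h : g.1 0 1 ≠ 0 ∨ g.1 1 0 ≠ 0) : toPSL F g ≠ 1 := by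
  rw [Ne, toPSL_eq_one_iff]
  rintro (rfl | rfl)
  · simp [sl2_one01, sl2_one10] at h
  · simp [sl2_neg_apply, sl2_one01, sl2_one10] at h

theorem bwAlive_psl2_even (h2 : (2 : F) = 0) (hz : ∃ z : F, z ^ 2 ≠ z) :
    BwAlive (ProjectiveSpecialLinearGroup (Fin 2) F) := by
  obtain ⟨z, hz⟩ := hz
  have hz0 : z ≠ 0 := by rintro rfl; simp at hz
  have hz1 : z ≠ 1 := by rintro rfl; simp at hz
  let y : SL(2, F) := ⟨!![1, 1; 0, 1], by simp [det_fin_two]⟩
  let x : SL(2, F) := ⟨!![z, -1; 1, 0], by simp [det_fin_two]⟩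
  have y00 : y.1 0 0 = 1 := rfl
  have y01 : y.1 0 1 = 1 := rfl
  have y10 : y.1 1 0 = 0 := rfl
  have y11 : y.1 1 1 = 1 := rfl
  refine bwAlive_of_inv (toPSL F) y x
    (fun s => s.1 1 0 ≠ 0 ∧ s.1 0 0 + s.1 1 1 ≠ 0 ∧ s.1 0 0 + s.1 1 1 + s.1 1 0 ≠ 0) ?_ ?_ ?_
  · refine ⟨one_ne_zero, ?_, ?_⟩
    · show z + 0 ≠ 0
      simpa using hz0
    · show z + 0 + 1 ≠ 0
      intro h
      apply hz1
      linear_combination h - h2
  · rintro s ⟨hc, ht, hw⟩
    have hd := sl2_det s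
    have e1 : (bwStep y s).1 1 0 = s.1 1 0 ^ 3 * (s.1 0 0 + s.1 1 1 + s.1 1 0) := by
      simp only [bwStep, inv_inv, sl2_mul_apply, sl2_inv00, sl2_inv01, sl2_inv10, sl2_inv11,
        y00, y01, y10, y11]
      grind
    have e2 : (bwStep y s).1 0 0 + (bwStep y s).1 1 1 =
        s.1 1 0 ^ 2 * (s.1 0 0 + s.1 1 1 + s.1 1 0) ^ 2 := by
      simp only [bwStep, inv_inv, sl2_mul_apply, sl2_inv00, sl2_inv01, sl2_inv10, sl2_inv11,
        y00, y01, y10, y11]
      grind
    refine ⟨?_, ?_, ?_⟩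
    · rw [e1]; exact mul_ne_zero (pow_ne_zero _ hc) hw
    · rw [e2]; exact mul_ne_zero (pow_ne_zero _ hc) (pow_ne_zero _ hw)
    · rw [e1, e2]
      have : s.1 1 0 ^ 2 * (s.1 0 0 + s.1 1 1 + s.1 1 0) ^ 2 +
          s.1 1 0 ^ 3 * (s.1 0 0 + s.1 1 1 + s.1 1 0) =
          s.1 1 0 ^ 2 * (s.1 0 0 + s.1 1 1 + s.1 1 0) * (s.1 0 0 + s.1 1 1) := by
        linear_combination (s.1 1 0 ^ 3 * (s.1 0 0 + s.1 1 1 + s.1 1 0)) * h2
      rw [this]
      exact mul_ne_zero (mul_ne_zero (pow_ne_zero _ hc) hw) ht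
  · rintro s ⟨hc, -, -⟩
    exact toPSL_ne_one_of (Or.inr hc)

theorem exists_avoid [Fintype F] (h7 : 7 ≤ Fintype.card F) :
    ∃ k : F, k ≠ 0 ∧ k ^ 2 ≠ 1 ∧ k ^ 2 ≠ -1 := by
  classical
  by_contra h
  push Not at h
  have hp : (Polynomial.X ^ 5 - Polynomial.X : Polynomial F) ≠ 0 :=
    FiniteField.X_pow_card_sub_X_ne_zero F (by norm_num)
  have hd : (Polynomial.X ^ 5 - Polynomial.X : Polynomial F).natDegree = 5 :=
    FiniteField.X_pow_card_sub_X_natDegree_eq F (by norm_num)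
  have hsub : (Finset.univ : Finset F) ⊆ (Polynomial.X ^ 5 - Polynomial.X : Polynomial F).roots.toFinset := by
    intro k _
    rw [Multiset.mem_toFinset, Polynomial.mem_roots hp]
    simp only [Polynomial.IsRoot.def, Polynomial.eval_sub, Polynomial.eval_pow, Polynomial.eval_X]
    by_cases h0 : k = 0
    · rw [h0]; simp
    by_cases h1 : k ^ 2 = 1
    · linear_combination (k ^ 3 + k) * h1
    · linear_combination (k ^ 3 - k) * h k h0 h1
  have := Finset.card_le_card hsub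
  have h2 := Multiset.toFinset_card_le (Polynomial.X ^ 5 - Polynomial.X : Polynomial F).roots
  have h3 := Polynomial.card_roots' (Polynomial.X ^ 5 - Polynomial.X : Polynomial F)
  rw [Finset.card_univ] at this
  omega

theorem exists_sq_add_sq [Fintype F] (ho : Fintype.card F % 2 = 1) (c : F) :
    ∃ a b : F, a ^ 2 + b ^ 2 = c := by
  obtain ⟨a, b, h⟩ := FiniteField.exists_root_sum_quadratic
    (f := (Polynomial.X ^ 2 : Polynomial F)) (g := Polynomial.X ^ 2 - Polynomial.C c)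
    (by simp) (Polynomial.degree_X_pow_sub_C (by norm_num) c) ho
  refine ⟨a, b, ?_⟩
  simp only [Polynomial.eval_pow, Polynomial.eval_X, Polynomial.eval_sub, Polynomial.eval_C] at h
  linear_combination h

theorem exists_sq_add_sq' [Fintype F] (ho : Fintype.card F % 2 = 1) (h7 : 7 ≤ Fintype.card F)
    (h2 : (2 : F) ≠ 0) {c : F} (hc : c ≠ 0) : ∃ a b : F, a ≠ 0 ∧ b ≠ 0 ∧ a ^ 2 + b ^ 2 = c := by
  obtain ⟨k, k0, k1, k2⟩ := exists_avoid h7
  have k3 : 1 + k ^ 2 ≠ 0 := fun h => k2 (by linear_combination h)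
  have k4 : 1 - k ^ 2 ≠ 0 := fun h => k1 (by linear_combination -h)
  have key : ∀ t : F, t ^ 2 = c → ∃ a b : F, a ≠ 0 ∧ b ≠ 0 ∧ a ^ 2 + b ^ 2 = c := by
    intro t ht
    have t0 : t ≠ 0 := by rintro rfl; exact hc (by rw [← ht]; simp)
    refine ⟨t * ((1 - k ^ 2) / (1 + k ^ 2)), t * (2 * k / (1 + k ^ 2)),
      mul_ne_zero t0 (div_ne_zero k4 k3), mul_ne_zero t0 (div_ne_zero (mul_ne_zero h2 k0) k3), ?_⟩
    rw [← ht]
    field_simp
    ring
  obtain ⟨a, b, h⟩ := exists_sq_add_sq ho c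
  by_cases ha : a = 0
  · exact key b (by rw [← h, ha]; ring)
  by_cases hb : b = 0
  · exact key a (by rw [← h, hb]; ring)
  exact ⟨a, b, ha, hb, h⟩

theorem bwAlive_psl2_odd [Fintype F] (ho : Fintype.card F % 2 = 1) (h7 : 7 ≤ Fintype.card F) :
    BwAlive (ProjectiveSpecialLinearGroup (Fin 2) F) := by
  have hr : ringChar F ≠ 2 := fun h => by
    have := FiniteField.even_card_of_char_two h
    omega
  have h2 : (2 : F) ≠ 0 := Ring.two_ne_zero hr
  obtain ⟨ν, hν, hν8⟩ : ∃ ν : F, ¬ IsSquare ν ∧ ν ≠ 8 := by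
    obtain ⟨ν, hν⟩ := FiniteField.exists_nonsquare hr
    by_cases h8 : ν = 8
    · obtain ⟨k, k0, k1, -⟩ := exists_avoid h7
      refine ⟨ν * k ^ 2, ?_, ?_⟩
      · rintro ⟨r, hr⟩
        refine hν ⟨r / k, ?_⟩
        field_simp
        linear_combination hr
      · intro h
        apply k1
        have h8' : (8 : F) ≠ 0 := by
          have : (8 : F) = 2 ^ 3 := by norm_num
          rw [this]; exact pow_ne_zero _ h2
        rw [h8] at h
        exact mul_left_cancel₀ h8' (by rw [h, mul_one])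
    · exact ⟨ν, hν, h8⟩
  obtain ⟨α, β, hαβ⟩ := exists_sq_add_sq ho (-ν / 2)
  obtain ⟨t, w, t0, w0, htw⟩ := exists_sq_add_sq' ho h7 h2 (c := -ν / 2 + 4) (by
    intro h
    apply hν8
    field_simp at h
    linear_combination -h)
  let y : SL(2, F) := ⟨!![0, 1; -1, 0], by simp [det_fin_two]⟩
  let x : SL(2, F) := ⟨!![(t + α) / 2, (β + w) / 2; (β - w) / 2, (t - α) / 2], by
    rw [det_fin_two_of]
    field_simp
    linear_combination htw - hαβ⟩
  have y00 : y.1 0 0 = 0 := rfl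
  have y01 : y.1 0 1 = 1 := rfl
  have y10 : y.1 1 0 = -1 := rfl
  have y11 : y.1 1 1 = 0 := rfl
  refine bwAlive_of_inv (toPSL F) y x
    (fun s => s.1 0 0 + s.1 1 1 ≠ 0 ∧ s.1 0 1 - s.1 1 0 ≠ 0 ∧
      ¬ IsSquare (-2 * ((s.1 0 0 - s.1 1 1) ^ 2 + (s.1 0 1 + s.1 1 0) ^ 2))) ?_ ?_ ?_
  · refine ⟨?_, ?_, ?_⟩
    · show (t + α) / 2 + (t - α) / 2 ≠ 0
      have : (t + α) / 2 + (t - α) / 2 = t := by field_simp; ring
      rwa [this]
    · show (β + w) / 2 - (β - w) / 2 ≠ 0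
      have : (β + w) / 2 - (β - w) / 2 = w := by field_simp; ring
      rwa [this]
    · show ¬ IsSquare (-2 * (((t + α) / 2 - (t - α) / 2) ^ 2 + ((β + w) / 2 + (β - w) / 2) ^ 2))
      have e1 : (t + α) / 2 - (t - α) / 2 = α := by field_simp; ring
      have e2 : (β + w) / 2 + (β - w) / 2 = β := by field_simp; ring
      have e3 : -2 * (-ν / 2) = ν := by field_simp
      rwa [e1, e2, hαβ, e3]
  · rintro s ⟨ht, hw, hN⟩
    have hd := sl2_det s
    have hd' := sl2_det (bwStep y s)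
    have e1 : (bwStep y s).1 0 0 + (bwStep y s).1 1 1 =
        2 + ((s.1 0 0 - s.1 1 1) ^ 2 + (s.1 0 1 + s.1 1 0) ^ 2) * (s.1 0 1 - s.1 1 0) ^ 2 := by
      simp only [bwStep, inv_inv, sl2_mul_apply, sl2_inv00, sl2_inv01, sl2_inv10, sl2_inv11,
        y00, y01, y10, y11]
      linear_combination (2 * (s.1 0 0 * s.1 1 1 - s.1 0 1 * s.1 1 0 + 1)) * hd
    have e2 : (bwStep y s).1 0 1 - (bwStep y s).1 1 0 =
        -(((s.1 0 0 - s.1 1 1) ^ 2 + (s.1 0 1 + s.1 1 0) ^ 2) * (s.1 0 1 - s.1 1 0) *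
          (s.1 0 0 + s.1 1 1)) := by
      simp only [bwStep, inv_inv, sl2_mul_apply, sl2_inv00, sl2_inv01, sl2_inv10, sl2_inv11,
        y00, y01, y10, y11]
      ring
    generalize hNd : (s.1 0 0 - s.1 1 1) ^ 2 + (s.1 0 1 + s.1 1 0) ^ 2 = N at e1 e2 hN
    have hN4 : (s.1 0 0 + s.1 1 1) ^ 2 + (s.1 0 1 - s.1 1 0) ^ 2 = N + 4 := by
      linear_combination hNd + 4 * hd
    generalize s.1 0 0 + s.1 1 1 = T at *
    generalize s.1 0 1 - s.1 1 0 = W at *
    have N0 : N ≠ 0 := by rintro rfl; exact hN ⟨0, by ring⟩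
    have N2 : N + 2 ≠ 0 := fun h => hN ⟨2, by linear_combination -2 * h⟩
    refine ⟨?_, ?_, ?_⟩
    · rw [e1]
      intro h
      refine hN ⟨2 / W, ?_⟩
      field_simp
      linear_combination -h
    · rw [e2]
      exact neg_ne_zero.2 (mul_ne_zero (mul_ne_zero N0 hw) ht)
    · have e3 : ((bwStep y s).1 0 0 - (bwStep y s).1 1 1) ^ 2 +
          ((bwStep y s).1 0 1 + (bwStep y s).1 1 0) ^ 2 = N * (W * (N + 2)) ^ 2 := by
        have : ((bwStep y s).1 0 0 - (bwStep y s).1 1 1) ^ 2 +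
          ((bwStep y s).1 0 1 + (bwStep y s).1 1 0) ^ 2 =
            ((bwStep y s).1 0 0 + (bwStep y s).1 1 1) ^ 2 +
              ((bwStep y s).1 0 1 - (bwStep y s).1 1 0) ^ 2 - 4 := by
          linear_combination -4 * hd'
        rw [this, e1, e2]
        linear_combination (N ^ 2 * W ^ 2) * hN4
      rw [e3]
      rintro ⟨r, hr⟩
      refine hN ⟨r / (W * (N + 2)), ?_⟩
      field_simp
      linear_combination hr
  · rintro s ⟨-, hw, -⟩
    apply toPSL_ne_one_of
    by_contra h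
    push Not at h
    exact hw (by rw [h.1, h.2, sub_zero])

end sl2

theorem bwAlive_sl33 : BwAlive (SpecialLinearGroup (Fin 3) (ZMod 3)) := by
  let y : SpecialLinearGroup (Fin 3) (ZMod 3) := ⟨!![1, 0, 0; 0, 2, 2; 0, 1, 0], by decide⟩
  let y' : SpecialLinearGroup (Fin 3) (ZMod 3) := ⟨!![1, 0, 0; 0, 0, 1; 0, 2, 2], by decide⟩
  let a : SpecialLinearGroup (Fin 3) (ZMod 3) := ⟨!![0, 0, 1; 2, 1, 2; 1, 1, 2], by decide⟩
  let a' : SpecialLinearGroup (Fin 3) (ZMod 3) := ⟨!![0, 1, 2; 1, 2, 2; 1, 0, 0], by decide⟩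
  let b : SpecialLinearGroup (Fin 3) (ZMod 3) := ⟨!![2, 1, 0; 2, 2, 2; 1, 1, 0], by decide⟩
  let b' : SpecialLinearGroup (Fin 3) (ZMod 3) := ⟨!![1, 0, 2; 2, 0, 2; 0, 2, 2], by decide⟩
  let c : SpecialLinearGroup (Fin 3) (ZMod 3) := ⟨!![1, 1, 0; 1, 1, 1; 0, 2, 0], by decide⟩
  let c' : SpecialLinearGroup (Fin 3) (ZMod 3) := ⟨!![1, 0, 1; 0, 0, 2; 2, 1, 0], by decide⟩
  have hy : y⁻¹ = y' := inv_eq_of_mul_eq_one_right (Subtype.ext (by decide))
  have ha : a⁻¹ = a' := inv_eq_of_mul_eq_one_right (Subtype.ext (by decide))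
  have hb : b⁻¹ = b' := inv_eq_of_mul_eq_one_right (Subtype.ext (by decide))
  have hc : c⁻¹ = c' := inv_eq_of_mul_eq_one_right (Subtype.ext (by decide))
  refine bwAlive_of_inv (MonoidHom.id _) y a (fun s => s = a ∨ s = b ∨ s = c) (Or.inl rfl) ?_ ?_
  · rintro s (rfl | rfl | rfl)
    · refine Or.inr (Or.inl ?_)
      simp only [bwStep, _root_.mul_inv_rev, hy, ha]
      exact Subtype.ext (by decide +kernel)
    · refine Or.inr (Or.inr ?_)
      simp only [bwStep, _root_.mul_inv_rev, hy, hb]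
      exact Subtype.ext (by decide +kernel)
    · refine Or.inl ?_
      simp only [bwStep, _root_.mul_inv_rev, hy, hc]
      exact Subtype.ext (by decide +kernel)
  · rintro s (rfl | rfl | rfl) h <;> exact absurd (congrArg Subtype.val h) (by decide)

theorem bwAlive_psl3 {F : Type*} [Field F] [Fintype F] (hF : Fintype.card F = 3) :
    BwAlive (ProjectiveSpecialLinearGroup (Fin 3) F) :=
  bwAlive_sl33.of_equiv
    ((H9.pslMapEquiv (FiniteField.ringEquivOfCardEq (by rw [hF, ZMod.card]))).trans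
      H31.psl33Equiv)

end Cfsg.Agent.H19
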