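import Cfsg.Agent.H19.MNa
import Cfsg.Prelude.Def_CaseTheorems

/-! A simple normal subgroup of a group with maximal normalisers. -/

set_option autoImplicit false
set_option linter.style.haveILetI false

namespace Cfsg.Agent.H19

open Subgroup Cfsg.Agent.H49

universe u

/-- `f` embeds the non-abelian simple group `L` as a normal subgroup of `X`. -/
structure Sit {X L : Type*} [Group X] [Group L] (f : L →* X) : Prop where
  mx : MX X
  inj : Function.Injective f
  nor : f.range.Normal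
  simple : IsSimpleGroup L
  nc : ¬ IsMulCommutative L

theorem Sit.comp {X L L' : Type*} [Group X] [Group L] [Group L'] {f : L →* X} (h : Sit f)
    (e : L' ≃* L) : Sit (f.comp e.toMonoidHom) := by
  refine ⟨h.mx, h.inj.comp e.injective, ?_, ?_, fun hc => h.nc ⟨⟨fun a b => ?_⟩⟩⟩
  · have : (f.comp e.toMonoidHom).range = f.range := by
      rw [MonoidHom.range_comp, MonoidHom.range_eq_top.2 e.surjective, ← MonoidHom.range_eq_map]
    rw [this]; exact h.nor
  · have := h.simple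
    exact e.isSimpleGroup
  · apply e.symm.injective
    rw [map_mul, map_mul]
    exact hc.is_comm.comm _ _

theorem mem_norm_map {X L : Type*} [Group X] [Group L] (f : L →* X) {H : Subgroup L} {s : L}
    (hs : s ∈ 𝒩(H)) : f s ∈ 𝒩(H.map f) :=
  mem_norm_iff_cj.2 (by rw [← map_cj, mem_norm_iff_cj.1 hs])

theorem mem_norm_of_map {X L : Type*} [Group X] [Group L] {f : L →* X} (hf : Function.Injective f)
    {H : Subgroup L} {s : L} (hs : f s ∈ 𝒩(H.map f)) : s ∈ 𝒩(H) :=
  mem_norm_iff_cj.2 (map_injective hf (by rw [map_cj, mem_norm_iff_cj.1 hs]))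

theorem not_solvable_of_simple {L : Type*} [Group L] [IsSimpleGroup L]
    (h : ¬ IsMulCommutative L) : ¬ Group.IsSolvable L := fun _ =>
  h ⟨⟨IsSimpleGroup.comm_iff_isSolvable.2 ‹_›⟩⟩

namespace Sit

variable {X : Type u} {L : Type*} [Group X] [Finite X] [Group L] {f : L →* X} (h : Sit f)
include h

theorem finite : Finite L := Finite.of_injective f h.inj

omit [Finite X] in
theorem map_ne_bot {H : Subgroup L} (hH : H ≠ ⊥) : H.map f ≠ ⊥ := fun e =>
  hH ((map_eq_bot_iff_of_injective H h.inj).1 e)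

omit [Finite X] in
theorem ord {a : L} {n : ℕ} (ha : orderOf a = n) : orderOf (f a) = n := by
  rw [orderOf_injective f h.inj, ha]

theorem frat {H : Subgroup L} (hH0 : H ≠ ⊥) (hH : TP H) (g : X) :
    ∃ s : L, ∃ n ∈ 𝒩(H.map f), g = f s * n := by
  have := h.finite
  have := h.simple
  have := h.nor
  have hc := h.mx _ (h.map_ne_bot hH0) (hH.map f)
  have : f.range ⊔ 𝒩(H.map f) = ⊤ := by
    refine (hc.le_iff.1 le_sup_right).resolve_right fun e => ?_
    have hn : H.Normal := normal_iff_top_le_norm.2 fun s _ =>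
      mem_norm_of_map h.inj (e.le (mem_sup_left ⟨s, rfl⟩))
    rcases hn.eq_bot_or_eq_top with e | e
    · exact hH0 e
    · subst e
      have := hH.solvable
      exact not_solvable_of_simple h.nc (Group.isSolvable_of_surjective (f := (⊤ : Subgroup L).subtype)
        fun x => ⟨⟨x, trivial⟩, rfl⟩)
  obtain ⟨_, ⟨s, rfl⟩, n, hn, e⟩ := (mem_sup_of_norm_left
    (le_top.trans (normal_iff_top_le_norm.1 h.nor))).1 (this.ge (mem_top g))
  exact ⟨s, n, hn, e⟩

theorem ngroup : IsNGroup L := by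
  rintro _ ⟨p, T, hp, hT, hT0, rfl⟩
  have := h.finite
  have h1 := h.mx.solv_norm hp (h.map_ne_bot hT0) ((isPi_of_isPGroup hp hT).map f)
  have h2 : (𝒩(T)).map f ≤ 𝒩(T.map f) := by
    rintro _ ⟨s, hs, rfl⟩
    exact mem_norm_map f hs
  have h3 := solvable_of_le h1 h2
  exact Group.isSolvable_of_isSolvable_injective (f := ((𝒩(T)).equivMapOfInjective f h.inj).toMonoidHom)
    (MulEquiv.injective _)

theorem pE {a b w : L} (ha : orderOf a = 2) (hb : orderOf b = 3) (hab : a * b = b * a)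
    (hw : w * b = b * w) : w * a = a * w := by
  apply h.inj
  rw [map_mul, map_mul]
  refine comm_of_norm_two (sq_of_order_two (h.ord ha)) (h.mx.lemE' Nat.prime_three Nat.prime_two
    (by norm_num) (h.ord hb) (h.ord ha) ?_ (mem_norm_of_comm ?_))
  · rw [← map_mul, hab, map_mul]
  · rw [← map_mul, hw, map_mul]

omit [Finite X] in
theorem pB {p : ℕ} (hp : p.Prime) {z g : L} (hz : orderOf z = p) (hU : TP 𝒞[z]) (hg : g ∈ 𝒩(𝒞[z])) :
    g * z * g⁻¹ ∈ zpowers z := by
  have e : (𝒞[z]).map f = f.range ⊓ 𝒞(zpowers (f z)) := by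
    rw [cent_zpowers]
    ext x
    constructor
    · rintro ⟨s, hs, rfl⟩
      exact ⟨⟨s, rfl⟩, mem_cent1.2 (by rw [← map_mul, mem_cent1.1 hs, map_mul])⟩
    · rintro ⟨⟨s, rfl⟩, hs⟩
      exact ⟨s, mem_cent1.2 (h.inj (by rw [map_mul, mem_cent1.1 hs, map_mul])), rfl⟩
  have h1 := h.mx.eqN (zpowers_ne_bot_of hp (h.ord hz)) (tp_of_pi hp (pi_zpowers hp (h.ord hz)))
    (h.map_ne_bot (ne_bot_mono (zpowers_le.2 (self_mem_cent1 z)) (zpowers_ne_bot_of hp hz)))
    (hU.map f) (by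
      rw [e]
      exact norm_inf (le_top.trans (normal_iff_top_le_norm.1 h.nor)) (norm_cent le_rfl))
    (mem_norm_map f hg)
  rw [← MonoidHom.map_zpowers] at h1
  exact conj_mem_of_mem_norm (mem_norm_of_map h.inj h1) (mem_zpowers z)

theorem pD {x t y : L} (hx : orderOf x = 3) (ht : orderOf t = 2) (hn : t * x * t⁻¹ = x⁻¹)
    (hy : y * x = x * y) : y * t * y⁻¹ * t ∈ zpowers x := by
  have := h.finite
  have h1 := h.mx.lemD (h.ord hx) (h.ord ht) (y := f y) (by
    rw [← MonoidHom.map_zpowers]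
    refine mem_norm_map f (mem_norm_of_cj_le ?_)
    rw [cj_zpowers, hn, zpowers_inv]) (mem_norm_of_comm (by rw [← map_mul, hy, map_mul]))
  rw [← MonoidHom.map_zpowers, ← map_inv, ← map_mul, ← map_mul, ← map_mul] at h1
  obtain ⟨s, hs, e⟩ := h1
  exact h.inj e ▸ hs

theorem frat2 {z t y : L} (hk : Kl z t) (h1 : y * z * y⁻¹ = t) (h2 : y * t * y⁻¹ = z * t) (g : X) :
    ∃ s : L, ∃ n ∈ 𝒩((hk.map f h.inj).V), n * f z = f z * n ∧ g = f s * n := by
  have := h.finite
  obtain ⟨s, n, hn, rfl⟩ := h.frat hk.V_ne_bot hk.tp_V g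
  rw [hk.map_V f h.inj] at hn
  have hy : y ∈ 𝒩(hk.V) := hk.mem_norm (h1 ▸ hk.t_mem) (h2 ▸ hk.zt_mem)
  have hY := mem_norm_map f hy
  rw [hk.map_V f h.inj] at hY
  have key : ∀ u : L, f u ∈ 𝒩((hk.map f h.inj).V) → n * f z * n⁻¹ = f (u * z * u⁻¹) →
      ∃ s' : L, ∃ n' ∈ 𝒩((hk.map f h.inj).V), n' * f z = f z * n' ∧ f s * n = f s' * n' := by
    intro u hu e
    refine ⟨s * u, (f u)⁻¹ * n, mul_mem (inv_mem hu) hn, ?_, by rw [map_mul]; group⟩
    rw [map_mul, map_mul, map_inv] at e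
    calc (f u)⁻¹ * n * f z = (f u)⁻¹ * (n * f z * n⁻¹) * n := by group
      _ = f z * ((f u)⁻¹ * n) := by rw [e]; group
  rcases conj_mem_of_mem_norm hn (hk.map f h.inj).z_mem with e | e | e | e
  · exact absurd (by simpa using e) (hk.map f h.inj).z1
  · exact key 1 (by simp) (by simpa using e)
  · exact key y hY (by rw [h1, e])
  · refine key (y * y) (by rw [map_mul]; exact mul_mem hY hY) ?_
    rw [e, ← map_mul, ← h2, ← h1]
    congr 1
    group

theorem pF {z t y : L} (hk : Kl z t) (h1 : y * z * y⁻¹ = t) (h2 : y * t * y⁻¹ = z * t)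
    (hc : ∀ g : L, g * z = z * g → g * t * g⁻¹ = t ∨ g * t * g⁻¹ = z * t) : False := by
  have := h.finite
  have hk' := hk.map f h.inj
  have hz := order_two_of hk'.zz hk'.z1
  have hy : y ∈ 𝒩(hk.V) := hk.mem_norm (h1 ▸ hk.t_mem) (h2 ▸ hk.zt_mem)
  have hY := mem_norm_map f hy
  rw [hk.map_V f h.inj] at hY
  have a : 𝒩(zpowers (f z)) ≤ 𝒩(hk'.V) := by
    intro g hg
    have hg' := comm_of_norm_two hk'.zz hg
    obtain ⟨s, n, hn, hnz, rfl⟩ := h.frat2 hk h1 h2 g
    refine mul_mem ?_ hn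
    have hs : s * z = z * s := h.inj (by
      rw [map_mul, map_mul]
      calc f s * f z = f s * (n * f z) * n⁻¹ := by rw [hnz]; group
        _ = f z * f s := by rw [← mul_assoc, hg']; group)
    rw [← hk.map_V f h.inj]
    refine mem_norm_map f (hk.mem_norm (by rw [hs]; simpa using hk.z_mem) ?_)
    rcases hc s hs with e | e <;> rw [e]
    exacts [hk.t_mem, hk.zt_mem]
  have b := h.mx.eqN (zpowers_ne_bot_of Nat.prime_two hz)
    (tp_of_pi Nat.prime_two (pi_zpowers Nat.prime_two hz)) hk'.V_ne_bot hk'.tp_V a hY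
  have c : y * z = z * y := h.inj (by rw [map_mul, map_mul]; exact comm_of_norm_two hk'.zz b)
  exact hk.zt (by rw [← h1, c]; group)

section G

variable {z t y x : L} (hk : Kl z t) (h1 : y * z * y⁻¹ = t) (h2 : y * t * y⁻¹ = z * t)
  (hy : y ^ 3 = 1) (hx : orderOf x = 3) (hxz : x * z = z * x) (hxt : t * x * t⁻¹ = x⁻¹)
  (h8 : ¬ 8 ∣ Nat.card L)

include hk hx hxz hxt h8 in
theorem stepA {s : L} (hz : s * z = z * s) (ht : s * t = t * s) : s ∈ hk.V := by
  have := h.finite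
  have hk' := hk.map f h.inj
  have hD : IsPi {2} (𝒞[z] ⊓ 𝒞[t]) := by
    intro r hr hd
    by_contra hr2
    obtain ⟨w, hw, hwr⟩ := exists_orderOf_eq_of_dvd_card hr hd
    have a := h.mx.lemE' Nat.prime_two hr hr2 (order_two_of hk'.zz hk'.z1) (h.ord hwr)
      (by rw [← map_mul, mem_cent1.1 hw.1, map_mul]) (w := f x)
      (mem_norm_of_comm (by rw [← map_mul, hxz, map_mul]))
    have b := h.mx.lemE' hr Nat.prime_two (Ne.symm hr2) (h.ord hwr) (order_two_of hk'.tt hk'.t1)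
      (by rw [← map_mul, ← mem_cent1.1 hw.2, map_mul]) a
    have c : x * t = t * x := h.inj (by rw [map_mul, map_mul]; exact comm_of_norm_two hk'.tt b)
    have d : x * x = 1 := by
      calc x * x = x * (t * x * t⁻¹) := by rw [← c]; group
        _ = 1 := by rw [hxt]; simp
    have := eq_one_of_mem_zp3 hx (mem_zpowers x) d
    subst this
    simp at hx
  obtain ⟨k, e⟩ := hD.exists_card_eq_pow Nat.prime_two
  have hk2 : k ≤ 2 := by
    by_contra hk3
    refine h8 (dvd_trans ?_ (card_subgroup_dvd_card (𝒞[z] ⊓ 𝒞[t])))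
    rw [e]
    exact pow_dvd_pow 2 (by omega : 3 ≤ k)
  have hle : hk.V ≤ 𝒞[z] ⊓ 𝒞[t] := hk.V_le ⟨self_mem_cent1 z, mem_cent1.2 hk.comm⟩
    ⟨mem_cent1.2 hk.comm.symm, self_mem_cent1 t⟩
  have := eq_of_le_of_card_ge hle (by
    rw [hk.card_V, e]
    exact Nat.pow_le_pow_right (n := 2) (by norm_num) hk2)
  rw [this]
  exact ⟨mem_cent1.2 hz, mem_cent1.2 ht⟩

include hk h1 h2 hy hx hxz hxt h8 in
theorem stepB {c : X} (hz : c * f z = f z * c) (ht : c * f t = f t * c) :
    c ∈ (hk.map f h.inj).V := by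
  have hk' := hk.map f h.inj
  have H1 : f y * f z * (f y)⁻¹ = f t := by rw [← h1]; simp
  have H2 : f y * f t * (f y)⁻¹ = f z * f t := by rw [← map_mul f z, ← h2]; simp
  have H3 : f y * (f z * f t) * (f y)⁻¹ = f z := by
    calc f y * (f z * f t) * (f y)⁻¹ = (f y * f z * (f y)⁻¹) * (f y * f t * (f y)⁻¹) := by group
      _ = f z := by rw [H1, H2, ← mul_assoc, ← hk'.comm, mul_assoc, hk'.tt, mul_one]
  have hY : f y ^ 3 = 1 := by rw [← map_pow, hy, map_one]
  have hzt : c * (f z * f t) = f z * f t * c := hk'.comm_V hz ht hk'.zt_mem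
  have cz : f y * c * (f y)⁻¹ * f z = f z * (f y * c * (f y)⁻¹) := by
    calc f y * c * (f y)⁻¹ * f z = f y * c * (f y)⁻¹ * (f y * (f z * f t) * (f y)⁻¹) := by rw [H3]
      _ = f y * (c * (f z * f t)) * (f y)⁻¹ := by group
      _ = f y * (f z * f t) * (f y)⁻¹ * (f y * c * (f y)⁻¹) := by rw [hzt]; group
      _ = _ := by rw [H3]
  have ct : f y * c * (f y)⁻¹ * f t = f t * (f y * c * (f y)⁻¹) := by
    calc f y * c * (f y)⁻¹ * f t = f y * c * (f y)⁻¹ * (f y * f z * (f y)⁻¹) := by rw [H1]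
      _ = f y * (c * f z) * (f y)⁻¹ := by group
      _ = f y * f z * (f y)⁻¹ * (f y * c * (f y)⁻¹) := by rw [hz]; group
      _ = _ := by rw [H1]
  obtain ⟨s, hs⟩ : c⁻¹ * (f y * c * (f y)⁻¹) ∈ f.range := by
    have a := h.nor.conj_mem _ ⟨y, rfl⟩ c⁻¹
    have b := mul_mem a (inv_mem (⟨y, rfl⟩ : f y ∈ f.range))
    simpa [mul_assoc] using b
  have hsV : s ∈ hk.V := by
    refine h.stepA hk hx hxz hxt h8 (h.inj ?_) (h.inj ?_)
    · rw [map_mul, map_mul, hs, mul_assoc, cz, ← mul_assoc, ← mul_assoc (f z), (Commute.inv_left hz).eq]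
    · rw [map_mul, map_mul, hs, mul_assoc, ct, ← mul_assoc, ← mul_assoc (f t), (Commute.inv_left ht).eq]
  have hv : c⁻¹ * (f y * c * (f y)⁻¹) ∈ hk'.V := by
    rw [← hs, ← hk.map_V f h.inj]
    exact mem_map_of_mem f hsV
  have key : ∀ u ∈ hk'.V, c⁻¹ * (f y * c * (f y)⁻¹) * (f y * u * (f y)⁻¹) = u → c ∈ hk'.V := by
    intro u hu e
    have a : c * u = 1 := by
      refine h.mx.cent_A4 hk' hY H1 ?_ ?_
      · rw [mul_assoc, ← hk'.comm_V rfl hk'.comm hu, ← mul_assoc, hz, mul_assoc]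
      · calc c * u * f y = c * (c⁻¹ * (f y * c * (f y)⁻¹) * (f y * u * (f y)⁻¹)) * f y := by rw [e]
          _ = f y * (c * u) := by group
    rw [eq_inv_of_mul_eq_one_left a]
    exact inv_mem hu
  rcases hv with e | e | e | e
  · exact key 1 (one_mem _) (by rw [e]; simp)
  · exact key _ hk'.t_mem (by rw [e, H2, ← mul_assoc, hk'.zz, one_mul])
  · exact key _ hk'.zt_mem (by rw [e, H3, hk'.comm])
  · exact key _ hk'.z_mem (by rw [e, H1, mul_assoc, hk'.tt, mul_one])

include hk h1 h2 hy hx hxz hxt h8 in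
theorem stepC {n : X} (hn : n ∈ 𝒩((hk.map f h.inj).V)) (hz : n * f z = f z * n) :
    n ∈ (hk.map f h.inj).V := by
  have := h.finite
  have hk' := hk.map f h.inj
  rcases conj_mem_of_mem_norm hn hk'.t_mem with e | e | e | e
  · exact absurd (by simpa using e) hk'.t1
  · refine absurd ?_ hk'.zt
    calc f z = n⁻¹ * (n * f z) := by group
      _ = n⁻¹ * (n * f t * n⁻¹) * n := by rw [hz, e]; group
      _ = f t := by group
  · refine h.stepB hk h1 h2 hy hx hxz hxt h8 hz ?_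
    calc n * f t = n * f t * n⁻¹ * n := by group
      _ = f t * n := by rw [e]
  · exfalso
    have a := h.mx.lemE' Nat.prime_two Nat.prime_three (by norm_num) (order_two_of hk'.zz hk'.z1)
      (h.ord hx) (by rw [← map_mul, hxz, map_mul]) (mem_norm_of_comm hz)
    have b := h.mx.lemD (h.ord hx) (order_two_of hk'.tt hk'.t1) (by
      rw [← MonoidHom.map_zpowers]
      refine mem_norm_map f (mem_norm_of_cj_le ?_)
      rw [cj_zpowers, hxt, zpowers_inv]) a
    rw [e, mul_assoc, hk'.tt, mul_one] at b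
    exact hk'.z1 (eq_one_of_mem_zp3 (h.ord hx) b hk'.zz)

include hk h1 h2 hy hx hxz hxt h8 in
theorem pG1 : Function.Surjective f := by
  intro g
  obtain ⟨s, n, hn, hz, rfl⟩ := h.frat2 hk h1 h2 g
  have := h.stepC hk h1 h2 hy hx hxz hxt h8 hn hz
  rw [← hk.map_V f h.inj] at this
  obtain ⟨v, -, rfl⟩ := this
  exact ⟨s * v, map_mul f s v⟩

include hk h1 h2 hy hx hxz hxt h8 in
theorem pG2 {K : Subgroup L} (hz : z ∈ K) (ht : t ∈ K) (hyK : y ∈ K) (hK : K ≠ ⊤) {u : L}
    (hu : u ∈ K) : u * z * u⁻¹ ∈ hk.V := by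
  have := h.finite
  have hk' := hk.map f h.inj
  have hyN : y ∈ 𝒩(hk.V) := hk.mem_norm (h1 ▸ hk.t_mem) (h2 ▸ hk.zt_mem)
  have hY := mem_norm_map f hyN
  rw [hk.map_V f h.inj] at hY
  have hVK : hk'.V ≤ K.map f := hk'.V_le (mem_map_of_mem f hz) (mem_map_of_mem f ht)
  have hle : 𝒩(hk'.V) ≤ K.map f := by
    intro n hn
    have key : ∀ u ∈ K, f u ∈ 𝒩(hk'.V) → n * f z * n⁻¹ = f (u * z * u⁻¹) → n ∈ K.map f := by
      intro u huK hu e
      have a := h.stepC hk h1 h2 hy hx hxz hxt h8 (mul_mem (inv_mem hu) hn) (by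
        rw [map_mul, map_mul, map_inv] at e
        calc (f u)⁻¹ * n * f z = (f u)⁻¹ * (n * f z * n⁻¹) * n := by group
          _ = f z * ((f u)⁻¹ * n) := by rw [e]; group)
      simpa using mul_mem (mem_map_of_mem f huK) (hVK a)
    rcases conj_mem_of_mem_norm hn hk'.z_mem with e | e | e | e
    · exact absurd (by simpa using e) hk'.z1
    · exact key 1 K.one_mem (by simp) (by simpa using e)
    · exact key y hyK hY (by rw [h1, e])
    · refine key (y * y) (K.mul_mem hyK hyK) (by rw [map_mul]; exact mul_mem hY hY) ?_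
      rw [e, ← map_mul, ← h2, ← h1]
      congr 1
      group
  have e := ((h.mx _ hk'.V_ne_bot hk'.tp_V).le_iff.1 hle).resolve_left fun e => hK (by
    rw [eq_top_iff]
    intro s _
    obtain ⟨s', hs', e'⟩ := e.ge (mem_top (f s))
    exact h.inj e' ▸ hs')
  have a : f u ∈ 𝒩(hk'.V) := e.le (mem_map_of_mem f hu)
  rw [← hk.map_V f h.inj] at a
  exact conj_mem_of_mem_norm (mem_norm_of_map h.inj a) hk.z_mem

end G

end Sit

end Cfsg.Agent.H19
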