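import Cfsg.Agent.H19.MNa
import Cfsg.Agent.H22.SL2Mult
import Cfsg.Agent.S4211

/-! Lifting from `G / R(G) ≅ PSL(2, 13)` to `G`. -/

set_option autoImplicit false
set_option linter.style.haveILetI false

namespace Cfsg.Agent.H19

open Subgroup Cfsg.Agent.H49 MatrixGroups

universe u

/-- Normalisers of two-prime subgroups not inside the kernel are full preimages. -/
structure Lft {G Y : Type*} [Group G] [Group Y] (ξ : G →* Y) : Prop where
  surj : Function.Surjective ξ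
  key : ∀ H : Subgroup G, TP H → ¬ H ≤ ξ.ker → ∀ g, ξ g ∈ 𝒩(H.map ξ) → g ∈ 𝒩(H)

instance factP13' : Fact (Nat.Prime 13) := ⟨by norm_num⟩

namespace Lft

variable {G : Type u} [Group G] [Finite G]

section general

variable {Y : Type*} [Group Y] {ξ : G →* Y} (h : Lft ξ)
include h

omit [Finite G] in
theorem ker_norm {H : Subgroup G} (hH : TP H) (hn : ¬ H ≤ ξ.ker) : ξ.ker ≤ 𝒩(H) := fun g hg =>
  h.key H hH hn g (by rw [MonoidHom.mem_ker.1 hg]; exact one_mem _)

theorem exists_Kp [IsSimpleGroup Y] {p : ℕ} (hp : p.Prime) (hd : p ∣ Nat.card Y) :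
    ∃ K : Subgroup G, K.Normal ∧ K.map ξ = ⊤ ∧
      ∀ g ∈ K, ∀ r ∈ ξ.ker, g * r * g⁻¹ * r⁻¹ ∈ piCoreOf {p} ξ.ker := by
  have hO : (piCoreOf {p} ξ.ker).Normal := normal_iff_top_le_norm.2
    (norm_piCoreOf _ (normal_iff_top_le_norm.1 inferInstance))
  have hR : (ξ.ker.map (QuotientGroup.mk' (piCoreOf {p} ξ.ker))).Normal :=
    Normal.map inferInstance _ (QuotientGroup.mk'_surjective _)
  have mem : ∀ g : G, g ∈ (𝒞(ξ.ker.map (QuotientGroup.mk' (piCoreOf {p} ξ.ker)))).comap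
      (QuotientGroup.mk' (piCoreOf {p} ξ.ker)) ↔
      ∀ r ∈ ξ.ker, g * r * g⁻¹ * r⁻¹ ∈ piCoreOf {p} ξ.ker := by
    intro g
    have e : ∀ r : G, g * r * g⁻¹ * r⁻¹ ∈ piCoreOf {p} ξ.ker ↔
        QuotientGroup.mk' (piCoreOf {p} ξ.ker) r * QuotientGroup.mk' (piCoreOf {p} ξ.ker) g =
        QuotientGroup.mk' (piCoreOf {p} ξ.ker) g * QuotientGroup.mk' (piCoreOf {p} ξ.ker) r := by
      intro r
      rw [← QuotientGroup.eq_one_iff, ← QuotientGroup.mk'_apply,
        map_mul, map_mul, map_mul, map_inv, map_inv, mul_inv_eq_one, mul_inv_eq_iff_eq_mul, eq_comm]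
    rw [mem_comap, mem_centralizer_iff]
    constructor
    · intro H r hr
      exact (e r).2 (H _ (mem_map_of_mem _ hr))
    · rintro H _ ⟨r, hr, rfl⟩
      exact (e r).1 (H r hr)
  refine ⟨_, inferInstance, ?_, fun g hg => (mem g).1 hg⟩
  obtain ⟨P, hP⟩ := exists_sylowOf p (⊤ : Subgroup G)
  have hP' := hP.map ξ
  rw [map_top_of_surjective ξ h.surj] at hP'
  obtain ⟨_, ⟨x, hx, rfl⟩, hx1⟩ := ne_bot_iff_exists.1 (hP'.ne_bot hp rfl (by rwa [card_top]))
  have hxp : IsPi {p} (zpowers x) := hP.pi.of_le (zpowers_le.2 hx)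
  have hn := h.ker_norm (tp_of_pi hp hxp) fun e => hx1 (e (mem_zpowers x))
  have hle : zpowers x ⊓ ξ.ker ≤ piCoreOf {p} ξ.ker :=
    le_piCoreOf inf_le_right (norm_inf hn le_normalizer) (hxp.inf_left _)
  refine (Normal.eq_bot_or_eq_top (Normal.map inferInstance ξ h.surj)).resolve_left
    (ne_bot_iff_exists.2 ⟨ξ x, mem_map_of_mem ξ ((mem x).2 fun r hr => hle ⟨?_, ?_⟩), hx1⟩)
  · have := mul_mem (mem_zpowers x) (conj_mem_of_norm hn hr (inv_mem (mem_zpowers x)))
    simpa [mul_assoc] using this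
  · exact ξ.ker.mul_mem (Normal.conj_mem inferInstance r hr x) (ξ.ker.inv_mem hr)

theorem exists_K [IsSimpleGroup Y] (hY : Group.IsPerfect Y) {p q : ℕ} (hp : p.Prime) (hq : q.Prime)
    (hpq : p ≠ q) (h1 : p ∣ Nat.card Y) (h2 : q ∣ Nat.card Y) :
    ∃ K : Subgroup G, K.Normal ∧ ⁅K, K⁆ = K ∧ K ≤ 𝒞(ξ.ker) ∧ K.map ξ = ⊤ := by
  obtain ⟨A, hA, hA1, hA2⟩ := h.exists_Kp hp h1
  obtain ⟨B, hB, hB1, hB2⟩ := h.exists_Kp hq h2
  have hc : ⁅A, B⁆ ≤ 𝒞(ξ.ker) := by
    refine (commutator_le_inf A B).trans (le_cent_iff.2 fun g hg r hr => ?_)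
    have : g * r * g⁻¹ * r⁻¹ ∈ piCoreOf {p} ξ.ker ⊓ piCoreOf {q} ξ.ker :=
      ⟨hA2 g hg.1 r hr, hB2 g hg.2 r hr⟩
    rw [((piCoreOf_pi _ _).compl_singleton_of_ne hpq).inf_eq_bot' (piCoreOf_pi _ _), mem_bot,
      mul_inv_eq_one, mul_inv_eq_iff_eq_mul] at this
    exact this.symm
  have top : ⁅(⊤ : Subgroup Y), ⊤⁆ = ⊤ := Group.isPerfect_def.1 hY
  have hm : ⁅A, B⁆.map ξ = ⊤ := by rw [map_commutator, hA1, hB1, top]
  set L := ⁅A, B⁆ with hL
  have hm' : ⁅L, L⁆.map ξ = ⊤ := by rw [map_commutator, hm, top]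
  refine ⟨⁅L, L⁆, inferInstance, ?_, der_le.trans hc, hm'⟩
  have e : ⁅L, L⁆ ⊔ (L ⊓ ξ.ker) = L := by
    refine le_antisymm (sup_le der_le inf_le_left) fun g hg => ?_
    obtain ⟨k, hk, e⟩ := hm'.ge (mem_top (ξ g))
    have : k⁻¹ * g ∈ L ⊓ ξ.ker := ⟨L.mul_mem (L.inv_mem (der_le hk)) hg, by
      simp [e]⟩
    simpa using mul_mem (mem_sup_left hk) (mem_sup_right this)
  have c : L ⊓ ξ.ker ≤ 𝒞(L) := inf_le_right.trans (cent_symm hc)
  conv_rhs => rw [← e]
  exact (H44.commutator_sup_of_centralizes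
    (H49.commutator_eq_bot_iff.2 (c.trans (cent_anti der_le)))
    (H49.commutator_eq_bot_iff.2 (c.trans (cent_anti inf_le_left)))).symm

end general

section thirteen

variable {ξ : G →* PSL(2, ZMod 13)} (h : Lft ξ)

theorem card_psl13 : Nat.card PSL(2, ZMod 13) = 1092 := by
  have := H9.gcd_mul_card_psl_two (F := ZMod 13)
  rw [ZMod.card, show Nat.gcd 2 (13 - 1) = 2 by norm_num] at this
  omega

include h in
theorem exists_eta : ∃ η : SL(2, ZMod 13) →* G, η.range.Normal ∧ η.range ≤ 𝒞(ξ.ker) ∧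
    ∀ A, ξ (η A) = H66.toPSL _ A := by
  have h3 : 3 < Fintype.card (ZMod 13) := by rw [ZMod.card]; norm_num
  have hS := H22.sl2_perfect h3
  have : IsSimpleGroup PSL(2, ZMod 13) := Matrix.ProjectiveSpecialLinearGroup.rank_two_simple
    (by rw [Nat.card_eq_fintype_card, ZMod.card]; norm_num)
  obtain ⟨K, hK, h1, h2, h4⟩ := h.exists_K (Group.IsPerfect.ofSurjective H66.toPSL_surjective)
    Nat.prime_three Nat.prime_two (by norm_num) (by rw [card_psl13]; norm_num)
    (by rw [card_psl13]; norm_num)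
  have hs : Function.Surjective (ξ.comp K.subtype) := fun y => by
    obtain ⟨k, hk, e⟩ := h4.ge (mem_top y)
    exact ⟨⟨k, hk⟩, e⟩
  have hc : (ξ.comp K.subtype).ker ≤ center K := fun k hk => mem_center_iff.2 fun g =>
    Subtype.ext (le_cent_iff.1 h2 g g.2 k hk).symm
  obtain ⟨η, hη, e⟩ := H22.exists_surjective_lift hS (isPerfect_iff.2 h1) H66.toPSL_surjective hs hc
    fun p hp _ => by
      have := Fact.mk hp
      have a := H81.pbFst_surjective (H66.toPSL (ZMod 13)) hs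
      have b := H81.pbFst_ker_le_center (H66.toPSL (ZMod 13)) hc
      by_cases e2 : p = 2
      · subst e2
        exact H22.sl2_not_two_dvd (by rw [ZMod.card]; decide) a b
      by_cases e13 : p = 13
      · subst e13
        exact H22.sl2_not_char_dvd (by rw [ZMod.card]; decide) (by rw [ZMod.card]; decide) 13 a b
      · exact H22.sl2_not_dvd_of_ne 13 e2 e13 a b
  have hr : (K.subtype.comp η).range = K := by
    rw [MonoidHom.range_comp, MonoidHom.range_eq_top.2 hη, map_subtype_top]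
  exact ⟨K.subtype.comp η, hr.symm ▸ hK, hr.symm ▸ h2, fun A => DFunLike.congr_fun e A⟩

variable {η : SL(2, ZMod 13) →* G} (hc : η.range ≤ 𝒞(ξ.ker)) (hη : ∀ A, ξ (η A) = H66.toPSL _ A)

omit [Finite G] in
include hc in
theorem comm (A : SL(2, ZMod 13)) {r : G} (hr : r ∈ ξ.ker) : r * η A = η A * r :=
  le_cent_iff.1 hc _ ⟨A, rfl⟩ r hr

theorem ne_one_of {A : SL(2, ZMod 13)} (h0 : A.1 0 1 ≠ 0) : H66.toPSL _ A ≠ 1 := by
  rw [Ne, H66.toPSL_eq_one_iff]
  rintro (rfl | rfl) <;> exact h0 (by decide)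

/-- elements of order 3, 7, 13 -/
def x3 : SL(2, ZMod 13) := ⟨!![0, 1; 12, 12], by decide⟩
def x7 : SL(2, ZMod 13) := ⟨!![0, 1; 12, 7], by decide⟩
def x13 : SL(2, ZMod 13) := ⟨!![0, 1; 12, 2], by decide⟩
def qi : SL(2, ZMod 13) := ⟨!![0, 1; 12, 0], by decide⟩
def qj : SL(2, ZMod 13) := ⟨!![0, 5; 5, 0], by decide⟩
def qy : SL(2, ZMod 13) := ⟨!![10, 10; 11, 2], by decide⟩

omit [Finite G] in
include hη in
theorem ord {q : ℕ} (hq : q.Prime) {x : SL(2, ZMod 13)} (hx : x ^ q = 1) (h0 : x.1 0 1 ≠ 0) :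
    orderOf (η x) = q ∧ orderOf (H66.toPSL _ x) = q := by
  have := Fact.mk hq
  refine ⟨orderOf_eq_prime (by rw [← map_pow, hx, map_one]) fun e => ne_one_of h0 ?_,
    orderOf_eq_prime (by rw [← map_pow, hx, map_one]) (ne_one_of h0)⟩
  rw [← hη, e, map_one]

include h hc hη in
theorem ded {p : ℕ} (hp : p.Prime) {r : G} (hr : r ∈ ξ.ker) (hrp : IsPi {p} (zpowers r)) :
    ξ.ker ≤ 𝒩(zpowers r) := by
  have key : ∀ q : ℕ, q.Prime → q ≠ p → ∀ x : SL(2, ZMod 13), x ^ q = 1 → x.1 0 1 ≠ 0 →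
      ξ.ker ≤ 𝒩(zpowers r) := by
    intro q hq hqp x hx h0
    have hxq := pi_zpowers hq (ord hη hq hx h0).1
    have c : zpowers r ≤ 𝒞(zpowers (η x)) := zp_cent (comm hc x hr)
    refine (h.ker_norm (tp_sup hq hp hxq hrp (Or.inr (norm_of_cent c))) fun e => ne_one_of h0 ?_).trans
      ((hall_sup_right (hxq.compl_singleton_of_ne hqp) hrp
        (Or.inr (norm_of_cent c))).norm_of_normal (sup_le (norm_of_cent (cent_symm c)) le_normalizer))
    rw [← hη]
    exact e (mem_sup_left (mem_zpowers _))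
  by_cases e : p = 3
  · exact key 7 (by norm_num) (by omega) x7 (by decide) (by decide)
  · exact key 3 (by norm_num) (Ne.symm e) x3 (by decide) (by decide)

include h hc hη in
theorem noodd {p : ℕ} (hp : p.Prime) (hp2 : p ≠ 2) {x : SL(2, ZMod 13)} (hx : x ^ p = 1)
    (h0 : x.1 0 1 ≠ 0) (ht : x * (qj * x) = qj) : ¬ p ∣ Nat.card ξ.ker := by
  intro hd
  obtain ⟨r, hr, hrp⟩ := exists_orderOf_eq_of_dvd_card hp hd
  obtain ⟨o1, o2⟩ := ord hη hp hx h0
  have ht' : qj * x * qj⁻¹ = x⁻¹ := by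
    calc qj * x * qj⁻¹ = x⁻¹ * (x * (qj * x)) * qj⁻¹ := by group
      _ = x⁻¹ := by rw [ht]; group
  have c : Commute (η x) r := (comm hc x hr).symm
  have e0 : ξ (η x * r) = H66.toPSL _ x := by rw [map_mul, hη, MonoidHom.mem_ker.1 hr, mul_one]
  have hw : (η x * r) ^ p = 1 := by
    rw [c.mul_pow, ← map_pow, hx, map_one, one_mul, ← hrp, pow_orderOf_eq_one]
  have a := h.key (zpowers (η x * r)) (tp_of_pi hp (isPi_zpowers.2
    (((isPiNat_prime (π := {p}) hp).2 rfl).of_dvd (orderOf_dvd_of_pow_eq_one hw))))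
    (fun e => ne_one_of h0 (e0 ▸ e (mem_zpowers _))) (η qj) (by
      rw [MonoidHom.map_zpowers, e0, hη]
      refine mem_norm_of_cj_le ?_
      rw [cj_zpowers, ← map_inv, ← map_mul, ← map_mul, ht', map_inv, zpowers_inv])
  obtain ⟨n, hn⟩ := mem_zpowers_iff.1 (conj_mem_of_mem_norm a (mem_zpowers _))
  have b : η qj * (η x * r) * (η qj)⁻¹ = (η x)⁻¹ * r := by
    calc η qj * (η x * r) * (η qj)⁻¹ = η qj * η x * (r * η qj⁻¹) := by rw [map_inv]; group
      _ = η (qj * x * qj⁻¹) * r := by rw [comm hc _ hr, map_mul, map_mul]; group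
      _ = _ := by rw [ht', map_inv]
  rw [b] at hn
  have d1 : (p : ℤ) ∣ n + 1 := by
    have := congrArg ξ hn
    rw [map_zpow, e0, map_mul, map_inv, hη, MonoidHom.mem_ker.1 hr, mul_one] at this
    rw [← o2, orderOf_dvd_iff_zpow_eq_one, zpow_add, this]
    simp
  have d2 : (p : ℤ) ∣ n - 1 := by
    have e1 : η x ^ (n + 1) = 1 := by rwa [← orderOf_dvd_iff_zpow_eq_one, o1]
    rw [c.mul_zpow] at hn
    rw [← hrp, orderOf_dvd_iff_zpow_eq_one]
    calc r ^ (n - 1) = (η x ^ (n + 1))⁻¹ * η x * (η x ^ n * r ^ n) * r⁻¹ := by group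
      _ = 1 := by rw [hn, e1]; group
  have d3 : (p : ℤ) ∣ 2 := by simpa using dvd_sub d1 d2
  exact hp2 ((Nat.prime_dvd_prime_iff_eq hp Nat.prime_two).1 (Int.natCast_dvd_natCast.1 d3))

include h hc hη in
theorem two {r : G} (hr : r ∈ ξ.ker) (hr2 : IsPi {2} (zpowers r)) : r ∈ η.range := by
  have p4 : ∀ A : SL(2, ZMod 13), A ^ 4 = 1 → IsPi {2} (zpowers (η A)) := fun A hA =>
    isPi_zpowers.2 ((isPiNat_singleton_pow Nat.prime_two 2).of_dvd
      (orderOf_dvd_of_pow_eq_one (by rw [← map_pow]; exact (congrArg η hA).trans (map_one η))))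
  have ij : qi * qj * qi⁻¹ = qj⁻¹ := by
    have : qj * (qi * qj) = qi := by decide
    calc qi * qj * qi⁻¹ = qj⁻¹ * (qj * (qi * qj)) * qi⁻¹ := by group
      _ = qj⁻¹ := by rw [this]; group
  have n1 : η qi ∈ 𝒩(zpowers (η qj)) := mem_norm_of_cj_le (by
    rw [cj_zpowers, ← map_inv, ← map_mul, ← map_mul, ij, map_inv, zpowers_inv])
  have n2 : r ∈ 𝒩(zpowers (η qj)) := mem_norm_of_comm (comm hc _ hr)
  have n3 : zpowers (η qi * r) ≤ 𝒩(zpowers (η qj)) := zpowers_le.2 (mul_mem n1 n2)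
  have hk : Kl (H66.toPSL _ qi) (H66.toPSL _ qj) := by
    refine ⟨?_, ?_, ?_, ne_one_of (by decide), ne_one_of (by decide), ?_⟩
    · rw [← map_mul, show qi * qi = -1 by decide, H66.toPSL_neg, map_one]
    · rw [← map_mul, show qj * qj = -1 by decide, H66.toPSL_neg, map_one]
    · rw [← map_mul, show qi * qj = -(qj * qi) by decide, H66.toPSL_neg, map_mul]
    · rw [Ne, H66.toPSL_eq_iff]
      decide
  have e0 : ξ (η qi * r) = H66.toPSL _ qi := by rw [map_mul, hη, MonoidHom.mem_ker.1 hr, mul_one]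
  have c : Commute (η qi) r := (comm hc qi hr).symm
  have hp1 : IsPi {2} (zpowers (η qi * r)) :=
    isPi_zpowers.2 ((isPi_zpowers.1 (p4 qi (by decide))).mul (isPi_zpowers.1 hr2) c)
  have y1 : qy * qi * qy⁻¹ = qj := by
    rw [show qy * qi = qj * qy by decide]; group
  have y2 : qy * qj * qy⁻¹ = qi * qj := by
    rw [show qy * qj = qi * qj * qy by decide]; group
  have a := h.key (zpowers (η qi * r) ⊔ zpowers (η qj))
    (tp_of_pi Nat.prime_two (hp1.sup (p4 qj (by decide)) (Or.inl n3)))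
    (fun e => hk.t1 (hη qj ▸ e (mem_sup_right (mem_zpowers _)))) (η qy) (by
      have : (zpowers (η qi * r) ⊔ zpowers (η qj)).map ξ = hk.V := by
        rw [Subgroup.map_sup, MonoidHom.map_zpowers, MonoidHom.map_zpowers, e0, hη]
        exact le_antisymm (sup_le (zpowers_le.2 hk.z_mem) (zpowers_le.2 hk.t_mem))
          (hk.V_le (mem_sup_left (mem_zpowers _)) (mem_sup_right (mem_zpowers _)))
      rw [this, hη]
      refine hk.mem_norm ?_ ?_ <;> rw [← map_inv, ← map_mul, ← map_mul]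
      · rw [y1]; exact hk.t_mem
      · rw [y2, map_mul]; exact hk.zt_mem)
  have b := conj_mem_of_mem_norm a (mem_sup_right (mem_zpowers _))
  rw [← map_inv, ← map_mul, ← map_mul, y2, map_mul] at b
  have b1 := mul_mem b (inv_mem (mem_sup_right (mem_zpowers (η qj))))
  rw [mul_inv_cancel_right] at b1
  have b2 := mul_mem (inv_mem b1) (mem_sup_left (mem_zpowers (η qi * r)))
  rw [inv_mul_cancel_left] at b2
  obtain ⟨_, ⟨n, rfl⟩, v, hv, e⟩ := (mem_sup_of_norm_right n3).1 b2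
  dsimp only at e
  have hv' : ξ v ∈ zpowers (H66.toPSL _ qj) := by
    rw [← hη, ← MonoidHom.map_zpowers]
    exact mem_map_of_mem ξ hv
  have hn : Even n := by
    refine (Int.even_or_odd n).resolve_right ?_
    rintro ⟨k, rfl⟩
    have := congrArg ξ e
    rw [MonoidHom.mem_ker.1 hr, map_mul, map_zpow, e0, zpow_add, zpow_mul, zpow_two, hk.zz,
      one_zpow, one_mul, zpow_one] at this
    rcases mem_zpowers_two hk.tt hv' with e' | e' <;> rw [e'] at this
    · exact hk.z1 (by simpa using this.symm)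
    · exact hk.zt1 this.symm
  have d : r ^ (1 - n) ∈ η.range := by
    have : r ^ (1 - n) = η qi ^ n * v := by
      obtain ⟨m, rfl⟩ := hv
      dsimp only at e ⊢
      have c' : Commute (r ^ n) (η qj ^ m) := Commute.zpow_zpow (comm hc qj hr) n m
      rw [c.mul_zpow, mul_assoc, c'.eq, ← mul_assoc] at e
      calc r ^ (1 - n) = r * (r ^ n)⁻¹ := by group
        _ = η qi ^ n * η qj ^ m * r ^ n * (r ^ n)⁻¹ := by rw [← e]
        _ = _ := by group
    rw [this]
    exact mul_mem (zpow_mem (⟨qi, rfl⟩ : η qi ∈ η.range) n)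
      (zpowers_le.2 (⟨qj, rfl⟩ : η qj ∈ η.range) hv)
  refine zpowers_le.2 d (mem_zpowers_zpow_iff.2 ?_)
  obtain ⟨k, hk'⟩ := hr2.exists_card_eq_pow Nat.prime_two
  rw [Nat.card_zpowers] at hk'
  rw [hk', ← Int.isCoprime_iff_gcd_eq_one]
  push_cast
  refine IsCoprime.pow_right ?_
  obtain ⟨j, rfl⟩ := hn
  exact ⟨1, j, by ring⟩

include h in
theorem main : ∃ K S : Subgroup G, K.Normal ∧ S.Normal ∧ K ⊓ S = ⊥ ∧ K ⊔ S = ⊤ ∧
    (Nonempty (K ≃* PSL(2, ZMod 13)) ∨ Nonempty (K ≃* SL(2, ZMod 13))) ∧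
    IsMulCommutative S ∧ (Nat.card K).Coprime (Nat.card S) := by
  obtain ⟨η, hn, hc, hη⟩ := h.exists_eta
  have syl : ∀ p : ℕ, p.Prime → ∀ P : Subgroup G, P ≤ ξ.ker → IsPi {p} P → ξ.ker ≤ 𝒩(P) :=
    fun p hp P hP hPp => le_norm_iff.2 fun g hg x hx => zpowers_le.2 hx (conj_mem_of_norm
      (h.ded hc hη hp (hP hx) (hPp.of_le (zpowers_le.2 hx))) hg (mem_zpowers x))
  have hnil : Group.IsNilpotent ξ.ker := nilpotent_of_sylowOf_normal fun p hp _ =>
    let ⟨P, hP⟩ := exists_sylowOf p ξ.ker; ⟨P, hP, syl p hp P hP.le hP.pi⟩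
  have all : ∀ H : Subgroup G, H ≤ ξ.ker → ξ.ker ≤ 𝒩(H) := fun H hH g hg =>
    mem_norm_of_cj_le (cj_le_iff.2 (le_of_sylowOf_le fun p hp _ =>
      let ⟨P, hP⟩ := exists_sylowOf p H
      ⟨P, hP, cj_le_iff.1 ((cj_eq_of_mem_norm (syl p hp P (hP.le.trans hH) hP.pi hg)).le.trans hP.le)⟩))
  have hA := piCoreOf_pi {2}ᶜ ξ.ker
  have hAle := piCoreOf_le {2}ᶜ ξ.ker
  have hdp := nilpotent_isDp hnil {2}
  set A := piCoreOf {2}ᶜ ξ.ker with hAdef
  have cop : (Nat.card η.range).Coprime (Nat.card A) := by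
    have d : Nat.card η.range ∣ 2 ^ 3 * 3 * 7 * 13 := by
      have := H9.card_sl_two (F := ZMod 13)
      rw [ZMod.card] at this
      exact (card_range_dvd η).trans (by rw [this]; norm_num)
    refine Nat.Coprime.coprime_dvd_left d ?_
    have nd : ∀ p : ℕ, p.Prime → ¬ p ∣ Nat.card ξ.ker → p.Coprime (Nat.card A) := fun p hp hd =>
      (Nat.Prime.coprime_iff_not_dvd hp).2 fun e => hd (e.trans (card_dvd_of_le hAle))
    refine Nat.Coprime.mul_left (Nat.Coprime.mul_left (Nat.Coprime.mul_left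
      (Nat.Coprime.pow_left 3 ?_) (nd 3 (by norm_num) ?_)) (nd 7 (by norm_num) ?_))
      (nd 13 (by norm_num) ?_)
    · exact ((isPi_compl_singleton_iff_coprime Nat.prime_two).1 hA).symm
    · exact h.noodd hc hη (by norm_num) (by norm_num) (x := x3) (by decide) (by decide) (by decide)
    · exact h.noodd hc hη (by norm_num) (by norm_num) (x := x7) (by decide) (by decide) (by decide)
    · exact h.noodd hc hη (by norm_num) (by norm_num) (x := x13) (by decide) (by decide) (by decide)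
  refine ⟨η.range, A, hn, normal_iff_top_le_norm.2
    (norm_piCoreOf _ (normal_iff_top_le_norm.1 inferInstance)), H49.inf_eq_bot_of_coprime cop, ?_, ?_,
    ?_, cop⟩
  · rw [eq_top_iff]
    intro g _
    obtain ⟨B, hB⟩ := H66.toPSL_surjective (ξ g)
    have a : (η B)⁻¹ * g ∈ ξ.ker := by simp [MonoidHom.mem_ker, hη, hB]
    have b : ξ.ker ≤ η.range ⊔ A := by
      rw [← hdp.1]
      refine sup_le_sup_right (fun r hr => h.two hc hη (piCoreOf_le _ _ hr)
        ((piCoreOf_pi _ _).of_le (zpowers_le.2 hr))) _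
    simpa using mul_mem (mem_sup_left (⟨B, rfl⟩ : η B ∈ η.range)) (b a)
  · by_cases e : η (-1) = 1
    · left
      refine ⟨MulEquiv.ofBijective (ξ.comp η.range.subtype) ⟨(injective_iff_map_eq_one _).2 ?_, ?_⟩⟩
      · rintro ⟨_, B, rfl⟩ hB
        rcases (H66.toPSL_eq_one_iff B).1 ((hη B).symm.trans hB) with rfl | rfl
        · exact Subtype.ext (map_one η)
        · exact Subtype.ext e
      · intro y
        obtain ⟨B, rfl⟩ := H66.toPSL_surjective y
        exact ⟨⟨_, B, rfl⟩, hη B⟩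
    · right
      refine ⟨(MonoidHom.ofInjective ((injective_iff_map_eq_one _).2 fun B hB => ?_)).symm⟩
      exact ((H66.toPSL_eq_one_iff B).1 (by rw [← hη, hB, map_one])).resolve_right
        fun e' => e (e' ▸ hB)
  · by_contra hna
    obtain ⟨Q, -, -, ⟨e⟩, -⟩ := S4211.result hna fun H => by
      have := normal_subgroupOf (hAle.trans (all (H.map A.subtype) ((map_subtype_le H).trans hAle)))
      rwa [subgroupOf, comap_map_eq_self_of_injective A.subtype_injective] at this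
    refine (isPi_compl_singleton Nat.prime_two).1 hA (dvd_trans ?_ (card_subgroup_dvd_card Q))
    rw [Nat.card_congr e.toEquiv, Nat.card_eq_fintype_card, QuaternionGroup.card]
    norm_num

end thirteen

end Lft

theorem isCoatom_of_comap {G Y : Type*} [Group G] [Group Y] {f : G →* Y}
    (hf : Function.Surjective f) {M : Subgroup Y} (h : IsCoatom (M.comap f)) : IsCoatom M := by
  refine ⟨fun e => h.1 (by rw [e, comap_top]), fun K hK => ?_⟩
  have := h.2 (K.comap f) (comap_lt_comap_of_surjective hf |>.2 hK)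
  exact comap_injective hf (this.trans (comap_top f).symm)

variable {G : Type u} [Group G] [Finite G]

theorem lft_solRad (h : ∀ H : Subgroup G, ¬ H.IsSubnormal → TP H → IsCoatom 𝒩(H)) :
    Lft (QuotientGroup.mk' (H44.solRad G)) ∧ MX (G ⧸ H44.solRad G) := by
  have hs := QuotientGroup.mk'_surjective (H44.solRad G)
  have key : ∀ H : Subgroup G, TP H → ¬ H ≤ (QuotientGroup.mk' (H44.solRad G)).ker →
      IsCoatom 𝒩(H) ∧ (𝒩(H.map (QuotientGroup.mk' (H44.solRad G)))).comap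
        (QuotientGroup.mk' (H44.solRad G)) = 𝒩(H) := by
    intro H hH hn
    rw [QuotientGroup.ker_mk'] at hn
    have hc := h H (fun e => hn (H44.le_solRad_of_subnormal e hH.solvable)) hH
    refine ⟨hc, (hc.le_iff.1 fun g hg => mem_comap.2 (mem_norm_iff_cj.2 ?_)).resolve_left
      fun e => hn ?_⟩
    · rw [← map_cj, mem_norm_iff_cj.1 hg]
    · have hN : (H.map (QuotientGroup.mk' (H44.solRad G))).Normal :=
        normal_iff_top_le_norm.2 fun y _ => by
          obtain ⟨g, rfl⟩ := hs y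
          exact e.ge (mem_top g)
      have := H44.le_solRad hN (hH.map _).solvable
      rw [H44.solRad_quotient_solRad, le_bot_iff, Subgroup.map_eq_bot_iff,
        QuotientGroup.ker_mk'] at this
      exact this
  refine ⟨⟨hs, fun H hH hn g hg => (key H hH hn).2.le hg⟩, fun H hH0 hH => ?_⟩
  obtain ⟨p, q, hp, hq, hπ⟩ := id hH
  obtain ⟨H₀, h₀⟩ := exists_hall (H44.isSolvable_comap (QuotientGroup.mk' (H44.solRad G))
    (by rw [QuotientGroup.ker_mk']; exact H44.solRad_isSolvable) hH.solvable) {p, q}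
  have e := h₀.map (QuotientGroup.mk' (H44.solRad G))
  rw [map_comap_eq_self_of_surjective hs] at e
  have e' := e.eq_self hπ
  obtain ⟨a, b⟩ := key H₀ ⟨p, q, hp, hq, h₀.pi⟩ fun c => hH0 (e' ▸ (Subgroup.map_eq_bot_iff _).2 c)
  rw [← b, e'] at a
  exact isCoatom_of_comap hs a

omit [Finite G] in
theorem Lft.comp {Y Y' : Type*} [Group Y] [Group Y'] {ξ : G →* Y} (h : Lft ξ) (e : Y ≃* Y') :
    Lft (e.toMonoidHom.comp ξ) := by
  refine ⟨e.surjective.comp h.surj, fun H hH hn g hg => h.key H hH (fun c => hn fun x hx => ?_) g ?_⟩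
  · simp [MonoidHom.mem_ker, MonoidHom.mem_ker.1 (c hx)]
  · rw [← map_map] at hg
    exact mem_norm_iff_cj.2 (map_injective (f := e.toMonoidHom) e.injective
      (by rw [map_cj]; exact mem_norm_iff_cj.1 hg))

end Cfsg.Agent.H19
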